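import Mathlib
import Cfsg.Agent.H352.L43.Ext

/-!
# The configuration `(Z, Q)`: `Q = O₃(C_G(Z))` extraspecial of order `3⁵` and exponent `3` (helper352)
-/

set_option autoImplicit false

namespace Cfsg.Agent.H352.L43

open scoped commutatorElement IsMulCommutative
open Subgroup

variable {G : Type*} [Group G]

/-- The local configuration. -/
structure Cfg (Z Q : Subgroup G) : Prop where
  cardZ : Nat.card ↥Z = 3
  cardQ : Nat.card ↥Q = 243
  le : Z ≤ Q
  leC : Q ≤ centralizer (Z : Set G)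
  normZ : ∀ g : G, (∀ z ∈ Z, g * z * g⁻¹ ∈ Z) → ∀ q ∈ Q, g * q * g⁻¹ ∈ Q
  comm : ∀ a ∈ Q, ∀ b ∈ Q, a * b * a⁻¹ * b⁻¹ ∈ Z
  cen : ∀ a ∈ Q, (∀ b ∈ Q, a * b = b * a) → a ∈ Z
  exp : ∀ a ∈ Q, a * a * a = 1
  CQ : centralizer (Q : Set G) ≤ Q
  cardC : Nat.card ↥(centralizer (Z : Set G)) = 5832

namespace Cfg

variable {Z Q : Subgroup G}

theorem center_eq (h : Cfg Z Q) : center ↥Q = Z.subgroupOf Q := by
  ext a
  rw [Subgroup.mem_center_iff, Subgroup.mem_subgroupOf]
  constructor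
  · intro ha
    apply h.cen a.1 a.2
    intro b hb
    have := ha ⟨b, hb⟩
    exact (congrArg Subtype.val this).symm
  · intro ha b
    apply Subtype.ext
    have h1 := Subgroup.mem_centralizer_iff.1 (h.leC b.2) a.1 ha
    exact h1.symm

theorem card_center (h : Cfg Z Q) : Nat.card ↥(center ↥Q) = 3 := by
  rw [h.center_eq, Nat.card_congr (Subgroup.subgroupOfEquivOfLe h.le).toEquiv, h.cardZ]

theorem hc (h : Cfg Z Q) : ∀ a b : ↥Q, ⁅a, b⁆ ∈ center ↥Q := by
  intro a b
  rw [h.center_eq, Subgroup.mem_subgroupOf]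
  exact h.comm a.1 a.2 b.1 b.2

theorem finiteQ (h : Cfg Z Q) : Finite ↥Q := Nat.finite_of_card_ne_zero (by rw [h.cardQ]; norm_num)

theorem commutator_eq (h : Cfg Z Q) : commutator ↥Q = center ↥Q := by
  have hle : commutator ↥Q ≤ center ↥Q := by
    rw [commutator_def, Subgroup.commutator_le]
    intro a _ b _
    exact h.hc a b
  have hfin := h.finiteQ
  apply Subgroup.eq_of_le_of_card_ge hle
  rw [h.card_center]
  have h1 : Nat.card ↥(commutator ↥Q) ∣ 3 := by
    rw [← h.card_center]; exact Subgroup.card_dvd_of_le hle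
  rcases (Nat.dvd_prime Nat.prime_three).1 h1 with h2 | h2
  · exfalso
    have hbot := Subgroup.eq_bot_of_card_eq _ h2
    have htop : center ↥Q = ⊤ := by
      rw [eq_top_iff]
      intro a _
      rw [Subgroup.mem_center_iff]
      intro b
      have : ⁅b, a⁆ ∈ commutator ↥Q := Subgroup.commutator_mem_commutator (Subgroup.mem_top _) (Subgroup.mem_top _)
      rw [hbot, Subgroup.mem_bot, commutatorElement_eq_one_iff_mul_comm] at this
      exact this
    have h4 := h.card_center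
    rw [htop, Subgroup.card_top, h.cardQ] at h4
    omega
  · rw [h2]

theorem card_M (h : Cfg Z Q) : Nat.card (Additive (Abelianization ↥Q)) = 81 := by
  have h1 : Nat.card (↥Q ⧸ commutator ↥Q) = 81 := by
    have h2 := Subgroup.card_mul_index (commutator ↥Q)
    rw [h.commutator_eq, h.card_center, h.cardQ] at h2
    have h3 : (commutator ↥Q).index = 81 := by rw [h.commutator_eq]; omega
    exact h3
  exact h1

theorem bar_eq_zero_iff (h : Cfg Z Q) (a : ↥Q) : bar a = 0 ↔ (a : G) ∈ Z := by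
  rw [bar_eq_zero, h.commutator_eq, h.center_eq, Subgroup.mem_subgroupOf]

theorem bar_eq_iff (h : Cfg Z Q) (a b : ↥Q) : bar a = bar b ↔ (a : G) * (b : G)⁻¹ ∈ Z := by
  rw [← sub_eq_zero, sub_eq_add_neg, ← bar_inv, ← bar_mul, h.bar_eq_zero_iff]
  rfl

theorem three_M (h : Cfg Z Q) (x : Additive (Abelianization ↥Q)) : x + x + x = 0 := by
  obtain ⟨a, rfl⟩ := bar_surj x
  rw [← bar_mul, ← bar_mul]
  have : a * a * a = 1 := Subtype.ext (h.exp a.1 a.2)
  rw [this, bar_one]

theorem normQ (h : Cfg Z Q) {g : G} (hg : g ∈ centralizer (Z : Set G)) : g ∈ normalizer (Q : Set G) := by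
  have hz : ∀ z ∈ Z, g * z * g⁻¹ ∈ Z := by
    intro z hz
    have h1 := Subgroup.mem_centralizer_iff.1 hg z hz
    rw [← h1]; simpa using hz
  have hz' : ∀ z ∈ Z, g⁻¹ * z * g⁻¹⁻¹ ∈ Z := by
    intro z hz
    have h1 := Subgroup.mem_centralizer_iff.1 hg z hz
    have : g⁻¹ * z * g⁻¹⁻¹ = z := by rw [inv_inv, mul_assoc, h1]; group
    rw [this]; exact hz
  rw [Subgroup.mem_normalizer_iff]
  intro q
  constructor
  · exact h.normZ g hz q
  · intro hq
    have := h.normZ g⁻¹ hz' _ hq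
    have e : g⁻¹ * (g * q * g⁻¹) * g⁻¹⁻¹ = q := by group
    rwa [e] at this

theorem normQ' (h : Cfg Z Q) {g : G} (hg : g ∈ centralizer (Z : Set G)) {q : G} (hq : q ∈ Q) :
    g * q * g⁻¹ ∈ Q := (Subgroup.mem_normalizer_iff.1 (h.normQ hg) q).1 hq

/-- conjugation -/
theorem map (h : Cfg Z Q) (φ : G ≃* G) : Cfg (Z.map φ.toMonoidHom) (Q.map φ.toMonoidHom) := by
  have hcent : centralizer ((Z.map φ.toMonoidHom : Subgroup G) : Set G)
      = (centralizer (Z : Set G)).map φ.toMonoidHom := by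
    ext x
    rw [Subgroup.mem_centralizer_iff]
    constructor
    · intro hx
      refine ⟨φ.symm x, ?_, by simp⟩
      rw [SetLike.mem_coe, Subgroup.mem_centralizer_iff]
      intro z hz
      apply φ.injective
      have := hx (φ z) ⟨z, hz, rfl⟩
      simpa using this
    · rintro ⟨y, hy, rfl⟩ _ ⟨z, hz, rfl⟩
      have := Subgroup.mem_centralizer_iff.1 hy z hz
      show φ z * φ y = φ y * φ z
      rw [← map_mul, this, map_mul]
  have hcard : ∀ K : Subgroup G, Nat.card ↥(K.map φ.toMonoidHom) = Nat.card ↥K := fun K =>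
    (Nat.card_congr (K.equivMapOfInjective φ.toMonoidHom φ.injective).toEquiv).symm
  refine ⟨?_, ?_, ?_, ?_, ?_, ?_, ?_, ?_, ?_, ?_⟩
  · rw [hcard, h.cardZ]
  · rw [hcard, h.cardQ]
  · exact Subgroup.map_mono h.le
  · rw [hcent]; exact Subgroup.map_mono h.leC
  · rintro g hg _ ⟨q, hq, rfl⟩
    refine ⟨φ.symm g * q * (φ.symm g)⁻¹, ?_, by simp⟩
    apply h.normZ _ _ q hq
    intro z hz
    obtain ⟨w, hw, he⟩ := hg (φ z) ⟨z, hz, rfl⟩
    have : φ.symm g * z * (φ.symm g)⁻¹ = w := by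
      apply φ.injective
      have he' : φ w = g * φ z * g⁻¹ := he
      rw [he']; simp
    rw [this]; exact hw
  · rintro _ ⟨a, ha, rfl⟩ _ ⟨b, hb, rfl⟩
    exact ⟨a * b * a⁻¹ * b⁻¹, h.comm a ha b hb, by simp⟩
  · rintro _ ⟨a, ha, rfl⟩ hab
    refine ⟨a, h.cen a ha ?_, rfl⟩
    intro b hb
    apply φ.injective
    have := hab (φ b) ⟨b, hb, rfl⟩
    rw [map_mul, map_mul]; exact this
  · rintro _ ⟨a, ha, rfl⟩
    show φ a * φ a * φ a = 1
    rw [← map_mul, ← map_mul, h.exp a ha, map_one]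
  · intro x hx
    rw [Subgroup.mem_centralizer_iff] at hx
    refine ⟨φ.symm x, ?_, by simp⟩
    apply h.CQ
    rw [Subgroup.mem_centralizer_iff]
    intro q hq
    apply φ.injective
    have := hx (φ q) ⟨q, hq, rfl⟩
    simpa using this
  · rw [hcent, hcard, h.cardC]

end Cfg

end Cfsg.Agent.H352.L43
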