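import Mathlib
import Cfsg.Agent.H352.L43.Core

/-!
# From the chain of `K`-invariant subgroups to the facts `Good` (helper352)
-/

set_option autoImplicit false

namespace Cfsg.Agent.H352.L43

open scoped commutatorElement IsMulCommutative
open Subgroup

variable {G : Type*} [Group G] {Z Q : Subgroup G}

set_option maxRecDepth 100000 in
theorem two_three : ∀ g : S3, g = -1 ∨ ∃ a b : S3, a * a * a = 1 ∧ b * b * b = 1 ∧ g = a * b := by decide

/-- the preimage of an additive subgroup of the module -/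
def pre (X : AddSubgroup (MM Q)) : Subgroup G where
  carrier := {g | ∃ hg : g ∈ Q, bar ⟨g, hg⟩ ∈ X}
  one_mem' := ⟨Q.one_mem, by
    have : (⟨1, Q.one_mem⟩ : ↥Q) = 1 := rfl
    rw [this, bar_one]; exact X.zero_mem⟩
  mul_mem' := by
    rintro a b ⟨ha, ha'⟩ ⟨hb, hb'⟩
    refine ⟨Q.mul_mem ha hb, ?_⟩
    have : (⟨a * b, Q.mul_mem ha hb⟩ : ↥Q) = ⟨a, ha⟩ * ⟨b, hb⟩ := rfl
    rw [this, bar_mul]; exact X.add_mem ha' hb'
  inv_mem' := by
    rintro a ⟨ha, ha'⟩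
    refine ⟨Q.inv_mem ha, ?_⟩
    have : (⟨a⁻¹, Q.inv_mem ha⟩ : ↥Q) = ⟨a, ha⟩⁻¹ := rfl
    rw [this, bar_inv]; exact X.neg_mem ha'

theorem mem_pre {X : AddSubgroup (MM Q)} {g : G} : g ∈ pre X ↔ ∃ hg : g ∈ Q, bar ⟨g, hg⟩ ∈ X := Iff.rfl

theorem pre_le (X : AddSubgroup (MM Q)) : pre X ≤ Q := fun _ hg => hg.1

theorem Cfg.le_pre (h : Cfg Z Q) (X : AddSubgroup (MM Q)) : Z ≤ pre X := by
  intro z hz
  refine ⟨h.le hz, ?_⟩
  rw [(h.bar_eq_zero_iff ⟨z, h.le hz⟩).2 hz]; exact X.zero_mem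

theorem Cfg.barS_pre (h : Cfg Z Q) (X : AddSubgroup (MM Q)) : barS Q (pre X) = X := by
  ext x
  obtain ⟨a, rfl⟩ := bar_surj x
  rw [h.bar_mem_barS (h.le_pre X)]
  exact ⟨fun ⟨_, h1⟩ => h1, fun h1 => ⟨a.2, h1⟩⟩

theorem Cfg.barS_mono {K L : Subgroup G} (hKL : K ≤ L) : barS Q K ≤ barS Q L := by
  intro x hx
  obtain ⟨a, ha, rfl⟩ := mem_barS.1 hx
  exact mem_barS.2 ⟨a, hKL ha, rfl⟩

theorem Cfg.pre_le_of (h : Cfg Z Q) {X : AddSubgroup (MM Q)} {K : Subgroup G} (hZK : Z ≤ K) (hX : X ≤ barS Q K) :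
    pre X ≤ K := by
  rintro g ⟨hg, hgX⟩
  exact (h.bar_mem_barS hZK _).1 (hX hgX)

theorem Cfg.le_pre_of (h : Cfg Z Q) {X : AddSubgroup (MM Q)} {K : Subgroup G} (hZK : Z ≤ K) (hKQ : K ≤ Q)
    (hX : barS Q K ≤ X) : K ≤ pre X := by
  intro g hg
  exact ⟨hKQ hg, hX ((h.bar_mem_barS hZK ⟨g, hKQ hg⟩).2 hg)⟩

theorem Cfg.pre_inv (h : Cfg Z Q) {X : AddSubgroup (MM Q)} (hX : ∀ c, ∀ x ∈ X, h.actC c x ∈ X) :
    ∀ c ∈ centralizer (Z : Set G), ∀ b ∈ pre X, c * b * c⁻¹ ∈ pre X := by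
  rintro c hc b ⟨hb, hbX⟩
  refine ⟨h.normQ' hc hb, ?_⟩
  rw [← h.actC_bar ⟨c, hc⟩ ⟨b, hb⟩ _ rfl]
  exact hX _ _ hbX

theorem Cfg.barS_inv (h : Cfg Z Q) {K : Subgroup G} (hZK : Z ≤ K)
    (hK : ∀ c ∈ centralizer (Z : Set G), ∀ b ∈ K, c * b * c⁻¹ ∈ K) : ∀ c, ∀ x ∈ barS Q K, h.actC c x ∈ barS Q K := by
  intro c x hx
  obtain ⟨a, ha, rfl⟩ := mem_barS.1 hx
  rw [h.actC_bar c a ⟨c * a * (c : G)⁻¹, h.normQ' c.2 a.2⟩ rfl, h.bar_mem_barS hZK]
  exact hK c c.2 a ha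

/-- an endomorphism restricted to an invariant subgroup -/
def resEnd {M : Type*} [AddCommGroup M] (φ : AddMonoid.End M) (W : AddSubgroup M) (hφ : ∀ x ∈ W, φ x ∈ W) :
    AddMonoid.End ↥W where
  toFun x := ⟨φ x, hφ x x.2⟩
  map_zero' := Subtype.ext (map_zero φ)
  map_add' _ _ := Subtype.ext (map_add φ _ _)

/-- an endomorphism on the quotient -/
def quoEnd {M : Type*} [AddCommGroup M] (φ : AddMonoid.End M) (W : AddSubgroup M) (hφ : ∀ x ∈ W, φ x ∈ W) :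
    AddMonoid.End (M ⧸ W) :=
  QuotientAddGroup.map W W φ hφ

theorem Cfg.good_of (h : Cfg Z Q) {π : ↥(centralizer (Z : Set G)) →* S3} (hπ : Cov Z Q π) {W0 : Subgroup G}
    (hZW : Z ≤ W0) (hWQ : W0 ≤ Q) (hcW : Nat.card ↥W0 = 27)
    (hinv : ∀ c ∈ centralizer (Z : Set G), ∀ b ∈ W0, c * b * c⁻¹ ∈ W0)
    (irr1 : ∀ B : Subgroup G, Z ≤ B → B ≤ W0 → (∀ c ∈ centralizer (Z : Set G), ∀ b ∈ B, c * b * c⁻¹ ∈ B) →
      B = Z ∨ B = W0)
    (irr2 : ∀ B : Subgroup G, W0 ≤ B → B ≤ Q → (∀ c ∈ centralizer (Z : Set G), ∀ b ∈ B, c * b * c⁻¹ ∈ B) →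
      B = W0 ∨ B = Q) : Good h π := by
  set W := barS Q W0 with hW
  have hW9 : Nat.card ↥W = 9 := by
    have := h.card_barS hZW hWQ
    rw [hcW, ← hW] at this; omega
  have hWinv := h.barS_inv hZW hinv
  have hWrho : ∀ g, ∀ x ∈ W, h.rho hπ g x ∈ W := by
    intro g x hx
    obtain ⟨c, rfl⟩ := hπ.surj g
    rw [h.rho_pi hπ]; exact hWinv c x hx
  have h3 := h.three_M
  have rel : ∀ g g' : S3, ∀ x, h.rho hπ g (h.rho hπ g' x) = h.rho hπ (g * g') x := by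
    intro g g' x; rw [map_mul]; rfl
  -- on `W`
  have hT1 : ∀ x ∈ W, h.rho hπ (-1) x = -x := by
    have key := neg_of_irr (V := ↥W) (I := resEnd (h.rho hπ i0) W (hWrho i0)) (J := resEnd (h.rho hπ j0) W (hWrho j0))
      (U := resEnd (h.rho hπ u0) W (hWrho u0)) (T := resEnd (h.rho hπ (-1)) W (hWrho (-1))) hW9
      (fun x => Subtype.ext (h3 x))
      (fun x => Subtype.ext (by show h.rho hπ i0 (h.rho hπ i0 x) = _; rw [rel, r1]; rfl))
      (fun x => Subtype.ext (by show h.rho hπ j0 (h.rho hπ j0 x) = _; rw [rel, r2]; rfl))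
      (fun x => Subtype.ext (by
        show h.rho hπ j0 (h.rho hπ i0 x) = h.rho hπ (-1) (h.rho hπ i0 (h.rho hπ j0 x)); rw [rel, rel, rel, r3, mul_assoc]))
      (fun x => Subtype.ext (by
        show h.rho hπ u0 (h.rho hπ i0 x) = h.rho hπ j0 (h.rho hπ u0 x); rw [rel, rel, r4]))
      (fun x => Subtype.ext (by
        show h.rho hπ u0 (h.rho hπ j0 x) = h.rho hπ i0 (h.rho hπ j0 (h.rho hπ u0 x)); rw [rel, rel, rel, r5, mul_assoc]))
      (fun x => Subtype.ext (by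
        show h.rho hπ u0 (h.rho hπ u0 (h.rho hπ u0 x)) = x; rw [rel, rel, r6, map_one]; rfl))
      (fun x => Subtype.ext (by
        show h.rho hπ (-1) (h.rho hπ (-1) x) = x; rw [rel, neg_mul_neg, mul_one, map_one]; rfl))
      ?_
    · intro x hx
      exact congrArg Subtype.val (key ⟨x, hx⟩)
    · intro X hXI hXJ hXU
      have hX' : ∀ g : S3, (∀ x, ∀ hx : x ∈ X, (⟨h.rho hπ g x, hWrho g x x.2⟩ : ↥W) ∈ X) →
          ∀ x ∈ X.map W.subtype, h.rho hπ g x ∈ X.map W.subtype := by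
        rintro g hg _ ⟨x, hx, rfl⟩
        exact ⟨_, hg x hx, rfl⟩
      have hinvX := h.inv_of hπ (X := X.map W.subtype) (hX' i0 hXI) (hX' j0 hXJ) (hX' u0 hXU)
      have hle : X.map W.subtype ≤ W := by
        rintro _ ⟨x, hx, rfl⟩; exact x.2
      rcases irr1 (pre (X.map W.subtype)) (h.le_pre _) (h.pre_le_of hZW hle) (h.pre_inv hinvX) with h4 | h4
      · left
        have h5 := h.barS_pre (X.map W.subtype)
        rw [h4] at h5
        rw [eq_bot_iff]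
        intro x hx
        have h6 : (x : MM Q) ∈ barS Q Z := by rw [h5]; exact ⟨x, hx, rfl⟩
        obtain ⟨a, ha, hax⟩ := mem_barS.1 h6
        rw [AddSubgroup.mem_bot]
        apply Subtype.ext
        rw [← hax]
        exact (h.bar_eq_zero_iff a).2 ha
      · right
        have h5 := h.barS_pre (X.map W.subtype)
        rw [h4] at h5
        rw [eq_top_iff]
        intro x _
        have h6 : (x : MM Q) ∈ X.map W.subtype := by rw [← h5]; exact x.2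
        obtain ⟨x', hx', he⟩ := h6
        have : x' = x := Subtype.ext he
        rwa [← this]
  -- on `M / W`
  have hT2 : ∀ x, h.rho hπ (-1) x + x ∈ W := by
    have hcard : Nat.card (MM Q ⧸ W) = 9 := by
      have h4 := AddSubgroup.card_mul_index W
      rw [hW9, h.card_M] at h4
      have : W.index = 9 := by omega
      exact this
    have sj : ∀ P : MM Q ⧸ W → Prop, (∀ x : MM Q, P (x : MM Q ⧸ W)) → ∀ x, P x := by
      intro P hP x
      obtain ⟨y, rfl⟩ := QuotientAddGroup.mk_surjective x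
      exact hP y
    have key := neg_of_irr (V := MM Q ⧸ W) (I := quoEnd (h.rho hπ i0) W (hWrho i0))
      (J := quoEnd (h.rho hπ j0) W (hWrho j0))
      (U := quoEnd (h.rho hπ u0) W (hWrho u0)) (T := quoEnd (h.rho hπ (-1)) W (hWrho (-1))) hcard
      (sj _ fun x => by
        show ((x + x + x : MM Q) : MM Q ⧸ W) = ((0 : MM Q) : MM Q ⧸ W)
        rw [h3])
      (sj _ fun x => by
        show ((h.rho hπ i0 (h.rho hπ i0 x) : MM Q) : MM Q ⧸ W) = ((h.rho hπ (-1) x : MM Q) : MM Q ⧸ W)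
        rw [rel, r1])
      (sj _ fun x => by
        show ((h.rho hπ j0 (h.rho hπ j0 x) : MM Q) : MM Q ⧸ W) = ((h.rho hπ (-1) x : MM Q) : MM Q ⧸ W)
        rw [rel, r2])
      (sj _ fun x => by
        show ((h.rho hπ j0 (h.rho hπ i0 x) : MM Q) : MM Q ⧸ W) =
          ((h.rho hπ (-1) (h.rho hπ i0 (h.rho hπ j0 x)) : MM Q) : MM Q ⧸ W)
        rw [rel, rel, rel, r3, mul_assoc])
      (sj _ fun x => by
        show ((h.rho hπ u0 (h.rho hπ i0 x) : MM Q) : MM Q ⧸ W) = ((h.rho hπ j0 (h.rho hπ u0 x) : MM Q) : MM Q ⧸ W)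
        rw [rel, rel, r4])
      (sj _ fun x => by
        show ((h.rho hπ u0 (h.rho hπ j0 x) : MM Q) : MM Q ⧸ W) =
          ((h.rho hπ i0 (h.rho hπ j0 (h.rho hπ u0 x)) : MM Q) : MM Q ⧸ W)
        rw [rel, rel, rel, r5, mul_assoc])
      (sj _ fun x => by
        show ((h.rho hπ u0 (h.rho hπ u0 (h.rho hπ u0 x)) : MM Q) : MM Q ⧸ W) = ((x : MM Q) : MM Q ⧸ W)
        rw [rel, rel, r6, map_one]; rfl)
      (sj _ fun x => by
        show ((h.rho hπ (-1) (h.rho hπ (-1) x) : MM Q) : MM Q ⧸ W) = ((x : MM Q) : MM Q ⧸ W)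
        rw [rel, neg_mul_neg, mul_one, map_one]; rfl)
      ?_
    · intro x
      have h4 := key (x : MM Q ⧸ W)
      have h5 : ((h.rho hπ (-1) x : MM Q) : MM Q ⧸ W) = ((-x : MM Q) : MM Q ⧸ W) := h4
      rw [QuotientAddGroup.eq] at h5
      have h6 := W.neg_mem h5
      have h7 : -(-(h.rho hπ (-1) x) + -x) = h.rho hπ (-1) x + x := by abel
      rwa [h7] at h6
    · intro X hXI hXJ hXU
      set X' : AddSubgroup (MM Q) := X.comap (QuotientAddGroup.mk' W) with hX'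
      have hm : ∀ x : MM Q, x ∈ X' ↔ (x : MM Q ⧸ W) ∈ X := fun x => Iff.rfl
      have hinvX := h.inv_of hπ (X := X') (fun x hx => hXI _ hx) (fun x hx => hXJ _ hx) (fun x hx => hXU _ hx)
      have hle : W ≤ X' := by
        intro x hx
        rw [hm, (QuotientAddGroup.eq_zero_iff x).2 hx]; exact X.zero_mem
      rcases irr2 (pre X') (h.le_pre_of hZW hWQ hle) (pre_le _) (h.pre_inv hinvX) with h4 | h4
      · left
        have h5 := h.barS_pre X'
        rw [h4] at h5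
        rw [eq_bot_iff]
        refine sj _ fun x hx => ?_
        have h6 : x ∈ W := by rw [hW, h5]; exact hx
        rw [AddSubgroup.mem_bot, QuotientAddGroup.eq_zero_iff]
        exact h6
      · right
        rw [eq_top_iff]
        refine sj _ fun x _ => ?_
        obtain ⟨a, rfl⟩ := bar_surj x
        have h6 : (a : G) ∈ pre X' := by rw [h4]; exact a.2
        obtain ⟨_, h7⟩ := h6
        exact h7
  have hT : ∀ x, h.rho hπ (-1) x = -x := by
    intro x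
    have h4 := hT1 _ (hT2 x)
    rw [map_add, rel, neg_mul_neg, mul_one, map_one] at h4
    have h5 : x + h.rho hπ (-1) x = -(h.rho hπ (-1) x + x) := h4
    have h6 : (h.rho hπ (-1) x + x) + (h.rho hπ (-1) x + x) = 0 := by
      nth_rewrite 1 [add_comm (h.rho hπ (-1) x) x, h5]
      rw [neg_add_cancel]
    have h7 := h3 (h.rho hπ (-1) x + x)
    rw [h6, zero_add] at h7
    exact eq_neg_of_add_eq_zero_left h7
  refine ⟨?_, W, hW9, hWinv⟩
  intro c hc x
  rw [← h.rho_pi hπ, hc]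
  exact hT x

end Cfsg.Agent.H352.L43
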