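import Cfsg.Agent.H352.L43.Simple
import Cfsg.Agent.H352.Elim.Main

/-!
# The facts for the elimination (helper352)
-/

set_option autoImplicit false

namespace Cfsg.Agent.H352.L43

open Subgroup Matrix

theorem exists_l : ∀ a b c d e f : ZMod 3, ¬ (a = 0 ∧ b = 0 ∧ c = 0) → ¬ (d = 0 ∧ e = 0 ∧ f = 0) →
    ¬ (d = -a ∧ e = -b ∧ f = -c) → ∃ l m n : ZMod 3,
      l * (a + d) + m * (b + e) + n * (c + f) = 1 ∧ l * (a - d) + m * (b - e) + n * (c - f) = 0 := by
  decide +kernel

theorem exists_swap33 (u v : V3) (hu : u ≠ 0) (hv : v ≠ 0) (huv : v ≠ -u) :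
    ∃ M : SL33, M.1 *ᵥ u = v ∧ M.1 *ᵥ v = u := by
  have h0 : ∀ w : V3, w ≠ 0 → ¬ (w 0 = 0 ∧ w 1 = 0 ∧ w 2 = 0) := by
    rintro w hw ⟨h1, h2, h3⟩
    apply hw
    funext i
    fin_cases i
    · exact h1
    · exact h2
    · exact h3
  obtain ⟨l, m, n, h1, h2⟩ := exists_l (u 0) (u 1) (u 2) (v 0) (v 1) (v 2) (h0 u hu) (h0 v hv) (by
    rintro ⟨h1, h2, h3⟩
    apply huv
    funext i
    fin_cases i
    · exact h1
    · exact h2
    · exact h3)
  have hu1 : l * u 0 + m * u 1 + n * u 2 = -1 := by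
    have h3 : (2 : ZMod 3) * (l * u 0 + m * u 1 + n * u 2) = 1 := by linear_combination h1 + h2
    have h4 : (2 : ZMod 3) = -1 := by decide
    rw [h4] at h3
    linear_combination -h3
  have hv1 : l * v 0 + m * v 1 + n * v 2 = -1 := by linear_combination hu1 - h2
  refine ⟨⟨Matrix.of fun i j => -(if i = j then 1 else 0) - (u i + v i) * ![l, m, n] j, ?_⟩, ?_, ?_⟩
  · rw [Matrix.det_fin_three]
    simp only [Matrix.of_apply]
    simp
    have h5 : (3 : ZMod 3) = 0 := by decide
    linear_combination (-1 : ZMod 3) * h1 - h5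
  · funext i
    have e : (Matrix.of fun i j => -(if i = j then (1 : ZMod 3) else 0) - (u i + v i) * ![l, m, n] j) *ᵥ u =
        fun i => -u i - (u i + v i) * (l * u 0 + m * u 1 + n * u 2) := by
      funext i
      simp only [Matrix.mulVec, dotProduct, Fin.sum_univ_three, Matrix.of_apply]
      fin_cases i <;> simp <;> ring
    show ((Matrix.of fun i j => -(if i = j then (1 : ZMod 3) else 0) - (u i + v i) * ![l, m, n] j) *ᵥ u) i = v i
    rw [e, hu1]; ring
  · funext i
    have e : (Matrix.of fun i j => -(if i = j then (1 : ZMod 3) else 0) - (u i + v i) * ![l, m, n] j) *ᵥ v =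
        fun i => -v i - (u i + v i) * (l * v 0 + m * v 1 + n * v 2) := by
      funext i
      simp only [Matrix.mulVec, dotProduct, Fin.sum_univ_three, Matrix.of_apply]
      fin_cases i <;> simp <;> ring
    show ((Matrix.of fun i j => -(if i = j then (1 : ZMod 3) else 0) - (u i + v i) * ![l, m, n] j) *ᵥ v) i = u i
    rw [e, hv1]; ring

namespace Loc43

variable {G : Type*} [Group G] [Finite G] {Z Q A : Subgroup G}

omit [Finite G] in
theorem cent_eq (h : Loc43 Z Q A) {z : G} (hz : z ∈ Z) (hz1 : z ≠ 1) :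
    centralizer ({z} : Set G) = centralizer (Z : Set G) := by
  apply le_antisymm
  · intro x hx
    rw [Subgroup.mem_centralizer_singleton_iff] at hx
    rw [Subgroup.mem_centralizer_iff]
    intro w hw
    by_cases hw1 : w = 1
    · rw [hw1]; simp
    rcases Two.eq_or_inv h.cfg.cardZ hw hz hw1 hz1 with h3 | h3
    · rw [h3]; exact hx.symm
    · rw [h3]
      have : Commute x z := hx
      exact this.symm.inv_left
  · exact Subgroup.centralizer_le (by simpa using hz)

theorem card_sylow (h : Loc43 Z Q A) (S : Sylow 3 G)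
    (hS : Z = (S : Subgroup G) ⊓ centralizer ((S : Subgroup G) : Set G)) :
    Nat.card ↥(S : Subgroup G) = 729 ∧ ¬ 3 ^ 7 ∣ Nat.card G := by
  have hp : Fact (Nat.Prime 3) := ⟨Nat.prime_three⟩
  have h1 : Nat.card ↥(S : Subgroup G) ∣ 5832 := by
    rw [← h.cfg.cardC]; exact Subgroup.card_dvd_of_le (S_le S hS)
  have h6 : 3 ^ 6 ∣ Nat.card G := by
    have h2 : Nat.card ↥(normalizer (A : Set G)) ∣ Nat.card G := Subgroup.card_subgroup_dvd_card _
    rw [h.card_N] at h2
    exact Dvd.dvd.trans (by norm_num) h2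
  have h7 := S.pow_dvd_card_of_pow_dvd_card h6
  constructor
  · obtain ⟨k, hk⟩ := h7
    rw [hk, show (5832 : ℕ) = 3 ^ 6 * 8 by norm_num] at h1
    have h2 : k ∣ 8 := Nat.dvd_of_mul_dvd_mul_left (by norm_num) h1
    obtain ⟨n, hn⟩ := (IsPGroup.iff_card).1 S.isPGroup'
    have h3 : k ∣ 3 ^ n := by rw [← hn, hk]; exact Dvd.intro_left _ rfl
    have h4 : k.Coprime 8 := by
      have : Nat.Coprime (3 ^ n) 8 := Nat.Coprime.pow_left n (by norm_num)
      exact Nat.Coprime.coprime_dvd_left h3 this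
    have h5 : k = 1 := Nat.eq_one_of_dvd_coprimes h4 dvd_rfl h2
    rw [hk, h5]
    norm_num
  · intro h8
    have h9 := (S.pow_dvd_card_of_pow_dvd_card h8).trans h1
    revert h9; decide

theorem all_sylow (h : Loc43 Z Q A) (S : Sylow 3 G)
    (hS : Z = (S : Subgroup G) ⊓ centralizer ((S : Subgroup G) : Set G)) {U : Subgroup G} (hU : IsPGroup 3 ↥U)
    (hU' : 729 ≤ Nat.card ↥U) : ∃ g : G, ∀ x, x ∈ U ↔ g * x * g⁻¹ ∈ (S : Subgroup G) := by
  have hp : Fact (Nat.Prime 3) := ⟨Nat.prime_three⟩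
  obtain ⟨T, hT⟩ := hU.exists_le_sylow
  obtain ⟨g, hg⟩ := MulAction.exists_smul_eq G T S
  have hcT : Nat.card ↥(T : Subgroup G) = 729 := by
    rw [← (h.card_sylow S hS).1, ← hg]
    exact (Nat.card_congr (T.equivSMul g).toEquiv)
  have hUT : U = (T : Subgroup G) := Subgroup.eq_of_le_of_card_ge hT (by rw [hcT]; exact hU')
  refine ⟨g, fun x => ?_⟩
  rw [hUT, ← hg]
  constructor
  · intro hx
    exact ⟨x, hx, rfl⟩
  · rintro ⟨y, hy, hyx⟩
    have h1 : g * y * g⁻¹ = g * x * g⁻¹ := hyx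
    have h2 : y = x := by simpa using h1
    rw [← h2]; exact hy

/-- **the elimination data** -/
theorem el (h : Loc43 Z Q A) (S : Sylow 3 G)
    (hS : Z = (S : Subgroup G) ⊓ centralizer ((S : Subgroup G) : Set G)) : Elim.El G where
  act := by
    obtain ⟨E, Φ, hE, hΦs, hΦk, hΦ⟩ := h.exists_Phi
    have hE0 : E 1 = 0 := by
      have := hE 1 1
      rw [mul_one] at this
      exact (left_eq_add.1 this)
    have hEi : ∀ a, E a⁻¹ = - E a := by
      intro a
      have := hE a⁻¹ a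
      rw [inv_mul_cancel, hE0] at this
      exact (neg_eq_of_add_eq_zero_left this.symm).symm
    have hp : Fact (Nat.Prime 13) := ⟨by norm_num⟩
    obtain ⟨s, hs⟩ := exists_prime_orderOf_dvd_card' (G := ↥(normalizer (A : Set G))) 13 (by
      rw [h.card_N]; norm_num)
    refine ⟨A, s, h.finA, ?_, h.commA, ?_, ?_, ?_⟩
    · intro a ha
      rw [pow_succ, pow_two]; exact h.expA ha
    · intro a ha b hb
      by_cases ha1 : a = 1
      · right; left; rw [ha1]; exact one_mem _
      by_cases hb1 : b = 1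
      · left; rw [hb1]; exact one_mem _
      by_cases hab : b = a⁻¹
      · left; rw [hab]; exact inv_mem (mem_zpowers a)
      right; right
      obtain ⟨M, hM1, hM2⟩ := exists_swap33 (E ⟨a, ha⟩) (E ⟨b, hb⟩) (by
        intro h1; apply ha1
        exact congrArg Subtype.val (E.injective (h1.trans hE0.symm))) (by
        intro h1; apply hb1
        exact congrArg Subtype.val (E.injective (h1.trans hE0.symm))) (by
        intro h1; apply hab
        rw [← hEi] at h1
        exact congrArg Subtype.val (E.injective h1))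
      obtain ⟨n, hn⟩ := hΦs M
      have key : ∀ x y : ↥A, M.1 *ᵥ E x = E y → (n : G) * x * (n : G)⁻¹ = y := by
        intro x y hxy
        have h1 : (n : G) * x * (n : G)⁻¹ ∈ A := (Subgroup.mem_normalizer_iff.1 n.2 x).1 x.2
        have h2 := hΦ n x ⟨_, h1⟩ rfl
        rw [hn, hxy] at h2
        exact congrArg Subtype.val (E.injective h2)
      exact ⟨n, key ⟨a, ha⟩ ⟨b, hb⟩ hM1, key ⟨b, hb⟩ ⟨a, ha⟩ hM2⟩
    · intro a ha
      exact (Subgroup.mem_normalizer_iff.1 s.2 a).1 ha
    · intro m hm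
      have h1 : (s : G) ^ m ∈ A := by
        apply h.centA
        rw [Subgroup.mem_centralizer_iff]
        intro a ha
        exact (hm a ha).symm
      have h2 : (s : G) ^ (m * 3) = 1 := by
        rw [pow_mul, pow_succ, pow_two]; exact h.expA h1
      have h3 : orderOf (s : G) = 13 := by rw [Subgroup.orderOf_coe]; exact hs
      have h4 : 13 ∣ m * 3 := by rw [← h3]; exact orderOf_dvd_of_pow_eq_one h2
      exact (Nat.Coprime.dvd_of_dvd_mul_right (by norm_num) h4)
  h7 := (h.card_sylow S hS).2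
  hP := by
    rw [← h.card_N]; exact Subgroup.card_subgroup_dvd_card _
  z := by
    obtain ⟨z, hz, hz1, -⟩ := h.trans
    refine ⟨z, ?_, hz1, ?_⟩
    · rw [pow_succ, pow_two]; exact h.cfg.exp z (h.cfg.le hz)
    · rw [h.cent_eq hz hz1, h.cfg.cardC]
  uniq := by
    intro x hx hx1 hd
    have hp : Fact (Nat.Prime 3) := ⟨Nat.prime_three⟩
    set C := centralizer ({x} : Set G) with hC
    have hxC : x ∈ C := by rw [hC, Subgroup.mem_centralizer_singleton_iff]
    obtain ⟨P⟩ : Nonempty (Sylow 3 ↥C) := inferInstance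
    have hPd := P.pow_dvd_card_of_pow_dvd_card hd
    have hnorm : (zpowers (⟨x, hxC⟩ : ↥C)).Normal := by
      refine ⟨?_⟩
      rintro _ ⟨n, rfl⟩ g
      refine ⟨n, ?_⟩
      have h1 : Commute g (⟨x, hxC⟩ : ↥C) := Subtype.ext (Subgroup.mem_centralizer_singleton_iff.1 g.2)
      have h2 : Commute g ((⟨x, hxC⟩ : ↥C) ^ n) := h1.zpow_right n
      simp only
      rw [h2.eq]; group
    have hpz : IsPGroup 3 ↥(zpowers (⟨x, hxC⟩ : ↥C)) := by
      rintro ⟨_, n, rfl⟩
      refine ⟨1, Subtype.ext (Subtype.ext ?_)⟩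
      show (x ^ n) ^ (3 ^ 1) = 1
      rw [← zpow_natCast (x ^ n), zpow_comm, zpow_natCast, pow_one, hx, _root_.one_zpow]
    have hxP : (⟨x, hxC⟩ : ↥C) ∈ (P : Subgroup ↥C) :=
      (IsPGroup.le_sylow_of_normal hpz P) (mem_zpowers _)
    obtain ⟨g, hg⟩ := h.all_sylow S hS (U := (P : Subgroup ↥C).map C.subtype) (P.isPGroup'.map _) (by
      rw [Nat.card_congr ((P : Subgroup ↥C).equivMapOfInjective C.subtype (Subgroup.subtype_injective C)).toEquiv.symm]
      exact Nat.le_of_dvd Nat.card_pos hPd)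
    have hxS : g * x * g⁻¹ ∈ (S : Subgroup G) := (hg x).1 ⟨⟨x, hxC⟩, hxP, rfl⟩
    have hxZ : g * x * g⁻¹ ∈ Z := by
      rw [hS]
      refine ⟨hxS, Subgroup.mem_centralizer_iff.2 ?_⟩
      intro y hy
      have h1 : g * (g⁻¹ * y * g) * g⁻¹ ∈ (S : Subgroup G) := by
        have : g * (g⁻¹ * y * g) * g⁻¹ = y := by group
        rw [this]; exact hy
      obtain ⟨⟨w, hwC⟩, hwP, hw⟩ := (hg _).2 h1
      have h2 : w = g⁻¹ * y * g := hw
      rw [hC, Subgroup.mem_centralizer_singleton_iff, h2] at hwC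
      calc y * (g * x * g⁻¹) = g * ((g⁻¹ * y * g) * x) * g⁻¹ := by group
        _ = g * (x * (g⁻¹ * y * g)) * g⁻¹ := by rw [hwC]
        _ = g * x * g⁻¹ * y := by group
    have hne : g * x * g⁻¹ ≠ 1 := by
      intro h1; apply hx1
      calc x = g⁻¹ * (g * x * g⁻¹) * g := by group
        _ = 1 := by rw [h1]; group
    have h1 := Elim.card_centralizer_congr (MulAut.conj g) x
    rw [MulAut.conj_apply, h.cent_eq hxZ hne, h.cfg.cardC] at h1
    exact h1.symm
  cen := by
    intro U hU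
    have hp : Fact (Nat.Prime 3) := ⟨Nat.prime_three⟩
    obtain ⟨g, hg⟩ := h.all_sylow S hS (U := U) (IsPGroup.of_card (n := 6) (by rw [hU]; norm_num)) (by rw [hU])
    have h1 : Nat.card ↥Z = 3 := h.cfg.cardZ
    rw [← h1]
    let f : ↥(U ⊓ centralizer (U : Set G)) → ↥Z := fun x => ⟨g * x * g⁻¹, by
      rw [hS]
      refine ⟨(hg x).1 x.2.1, Subgroup.mem_centralizer_iff.2 ?_⟩
      intro y hy
      have h2 : g * (g⁻¹ * y * g) * g⁻¹ ∈ (S : Subgroup G) := by
        have : g * (g⁻¹ * y * g) * g⁻¹ = y := by group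
        rw [this]; exact hy
      have h3 := (hg _).2 h2
      have h4 := Subgroup.mem_centralizer_iff.1 x.2.2 _ h3
      calc y * (g * x * g⁻¹) = g * ((g⁻¹ * y * g) * x) * g⁻¹ := by group
        _ = g * (x * (g⁻¹ * y * g)) * g⁻¹ := by rw [h4]
        _ = g * x * g⁻¹ * y := by group⟩
    apply Nat.card_le_card_of_injective f
    intro x y hxy
    have h5 : g * (x : G) * g⁻¹ = g * (y : G) * g⁻¹ := congrArg Subtype.val hxy
    exact Subtype.ext (by simpa using h5)

end Loc43

end Cfsg.Agent.H352.L43
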