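import Mathlib
import Cfsg.Agent.H352.L43.Cfg

/-!
# Two configurations `(Z, Q)`, `(Y, R)` with `Y ≤ Q`: the intersection `A = Q ∩ R` (helper352)
-/

set_option autoImplicit false

namespace Cfsg.Agent.H352.L43

open scoped commutatorElement IsMulCommutative
open Subgroup

variable {G : Type*} [Group G]

theorem eq_of_mem_ne_one {Z Y : Subgroup G} (hZ : Nat.card ↥Z = 3) (hY : Nat.card ↥Y = 3) {x : G} (hx : x ≠ 1)
    (h1 : x ∈ Z) (h2 : x ∈ Y) : Z = Y := by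
  have key : ∀ W : Subgroup G, Nat.card ↥W = 3 → x ∈ W → zpowers x = W := by
    intro W hW hxW
    have hfin : Finite ↥W := Nat.finite_of_card_ne_zero (by rw [hW]; norm_num)
    have hle : zpowers x ≤ W := by rwa [Subgroup.zpowers_le]
    apply Subgroup.eq_of_le_of_card_ge hle
    have h3 : Nat.card ↥(zpowers x) ∣ 3 := by rw [← hW]; exact Subgroup.card_dvd_of_le hle
    rcases (Nat.dvd_prime Nat.prime_three).1 h3 with h | h
    · exfalso; apply hx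
      have := Subgroup.eq_bot_of_card_eq _ h
      rwa [Subgroup.zpowers_eq_bot] at this
    · rw [h, hW]
  rw [← key Z hZ h1, ← key Y hY h2]

namespace Cfg

variable {Z Q : Subgroup G}

theorem subgroupOf_cent (h : Cfg Z Q) {y : G} (hy : y ∈ Q) :
    (Q ⊓ centralizer {y}).subgroupOf Q = (pairHom h.hc ⟨y, hy⟩).ker := by
  ext a
  rw [Subgroup.mem_subgroupOf, mem_ker_pairHom, Subgroup.mem_inf, Subgroup.mem_centralizer_singleton_iff]
  constructor
  · intro ha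
    exact Subtype.ext ha.2.symm
  · intro ha
    exact ⟨a.2, (congrArg Subtype.val ha).symm⟩

theorem cent_card (h : Cfg Z Q) {y : G} (hy : y ∈ Q) (hyZ : y ∉ Z) :
    Nat.card ↥(Q ⊓ centralizer {y}) = 81 := by
  have hfin := h.finiteQ
  have h1 := h.subgroupOf_cent hy
  have h2 : Nat.card ↥((Q ⊓ centralizer {y}).subgroupOf Q) = Nat.card ↥(Q ⊓ centralizer {y}) :=
    Nat.card_congr (Subgroup.subgroupOfEquivOfLe inf_le_left).toEquiv
  rw [← h2, h1]
  have h3 := Subgroup.card_mul_index (pairHom h.hc ⟨y, hy⟩).ker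
  rw [index_ker_pairHom h.hc h.card_center (by
    rw [h.center_eq, Subgroup.mem_subgroupOf]; exact hyZ), h.cardQ] at h3
  omega

theorem cent2_card (h : Cfg Z Q) {y y' : G} (hy : y ∈ Q) (hyZ : y ∉ Z) (hy' : y' ∈ Q)
    (hyy : ∀ k : ℤ, y' * y ^ k ∉ Z) :
    Nat.card ↥(Q ⊓ centralizer {y} ⊓ centralizer {y'}) = 27 := by
  have hfin := h.finiteQ
  have h1 := h.subgroupOf_cent hy
  have h1' := h.subgroupOf_cent hy'
  have h2 : Nat.card ↥((Q ⊓ centralizer {y} ⊓ centralizer {y'}).subgroupOf Q)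
      = Nat.card ↥(Q ⊓ centralizer {y} ⊓ centralizer {y'}) :=
    Nat.card_congr (Subgroup.subgroupOfEquivOfLe (inf_le_left.trans inf_le_left)).toEquiv
  have h3 : (Q ⊓ centralizer {y} ⊓ centralizer {y'}).subgroupOf Q =
      (pairHom h.hc ⟨y, hy⟩).ker ⊓ (pairHom h.hc ⟨y', hy'⟩).ker := by
    rw [← h1, ← h1']
    ext a
    simp only [Subgroup.mem_subgroupOf, Subgroup.mem_inf]
    tauto
  rw [← h2, h3]
  have h4 := Subgroup.card_mul_index ((pairHom h.hc ⟨y, hy⟩).ker ⊓ (pairHom h.hc ⟨y', hy'⟩).ker)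
  rw [relIndex_two h.hc h.card_center (by
    rw [h.center_eq, Subgroup.mem_subgroupOf]; exact hyZ) (by
    intro k
    rw [h.center_eq, Subgroup.mem_subgroupOf]; exact hyy k), h.cardQ] at h4
  omega

/-- an element outside `Z⟨y⟩` in a big subgroup -/
theorem exists_out (h : Cfg Z Q) {D : Subgroup G} (_hD : D ≤ Q) (hcard : 9 < Nat.card ↥D) {y : G}
    (hy : y ∈ Q) : ∃ y' ∈ D, ∀ k : ℤ, y' * y ^ k ∉ Z := by
  by_contra hcon
  push Not at hcon
  -- then `D ≤ Z ⊔ ⟨y⟩`, of order at most 9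
  have hfin := h.finiteQ
  have hn : ∀ z ∈ Z, z * y = y * z := fun z hz => (Subgroup.mem_centralizer_iff.1 (h.leC hy) z hz)
  let φ : ↥Z × ZMod 3 → G := fun p => p.1 * y ^ (p.2.val)
  have hD' : (D : Set G) ⊆ Set.range φ := by
    intro d hd
    obtain ⟨k, hk⟩ := hcon d hd
    have hy3 : y ^ (3 : ℤ) = 1 := by
      have := h.exp y hy
      rw [show (3 : ℤ) = 1 + 1 + 1 by norm_num, zpow_add, zpow_add, zpow_one, this]
    refine ⟨(⟨d * y ^ k, hk⟩, (((-k : ℤ)) : ZMod 3)), ?_⟩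
    have hval : ∃ m : ℤ, (((((-k : ℤ)) : ZMod 3)).val : ℤ) = -k + 3 * m := by
      have h1 := ZMod.val_intCast (n := 3) (-k)
      refine ⟨-((-k) / 3), ?_⟩
      rw [h1]
      have := Int.emod_add_mul_ediv (-k) 3
      push_cast
      omega
    obtain ⟨m, hm⟩ := hval
    show d * y ^ k * y ^ (((((-k : ℤ)) : ZMod 3)).val) = d
    rw [← zpow_natCast, hm, zpow_add, zpow_mul, hy3, one_zpow, mul_one, mul_assoc, ← zpow_add]
    simp
  have hZfin : Finite ↥Z := Nat.finite_of_card_ne_zero (by rw [h.cardZ]; norm_num)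
  have h1 : Nat.card ↥D ≤ Nat.card (Set.range φ) := Nat.card_mono (Set.finite_range φ) hD'
  have h2 : Nat.card (Set.range φ) ≤ Nat.card (↥Z × ZMod 3) := by
    exact Finite.card_range_le φ
  rw [Nat.card_prod, h.cardZ, Nat.card_zmod] at h2
  omega

end Cfg

/-- two configurations with `Y ≤ Q` -/
structure Two (Z Q Y R : Subgroup G) : Prop where
  h : Cfg Z Q
  h' : Cfg Y R
  YQ : Y ≤ Q
  ne : Y ≠ Z

namespace Two

variable {Z Q Y R : Subgroup G}

theorem disj (t : Two Z Q Y R) {x : G} (h1 : x ∈ Z) (h2 : x ∈ Y) : x = 1 := by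
  by_contra hx
  exact t.ne (eq_of_mem_ne_one t.h.cardZ t.h'.cardZ hx h1 h2).symm

theorem cent_Y (t : Two Z Q Y R) {y : G} (hy : y ∈ Y) (hy1 : y ≠ 1) : centralizer ({y} : Set G) = centralizer (Y : Set G) := by
  apply le_antisymm
  · intro x hx
    rw [Subgroup.mem_centralizer_singleton_iff] at hx
    rw [Subgroup.mem_centralizer_iff]
    intro w hw
    have hz : zpowers y = Y := by
      have hc3 : Nat.card ↥(zpowers y) = 3 := by
        have h3 : Nat.card ↥(zpowers y) ∣ 3 := by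
          rw [← t.h'.cardZ]; exact Subgroup.card_dvd_of_le (by rwa [Subgroup.zpowers_le])
        rcases (Nat.dvd_prime Nat.prime_three).1 h3 with h | h
        · exfalso; apply hy1
          have := Subgroup.eq_bot_of_card_eq _ h
          rwa [Subgroup.zpowers_eq_bot] at this
        · exact h
      exact eq_of_mem_ne_one hc3 t.h'.cardZ hy1 (Subgroup.mem_zpowers y) hy
    rw [← hz] at hw
    obtain ⟨k, rfl⟩ := Subgroup.mem_zpowers_iff.1 hw
    have : Commute x y := hx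
    exact (this.symm.zpow_left k)
  · exact Subgroup.centralizer_le (by simpa using hy)

theorem exists_y (t : Two Z Q Y R) : ∃ y ∈ Y, y ≠ 1 := by
  by_contra hcon
  push Not at hcon
  have : Y = ⊥ := by rw [eq_bot_iff]; intro x hx; exact hcon x hx
  have h2 := t.h'.cardZ
  rw [this] at h2
  simp at h2

theorem notMem (t : Two Z Q Y R) {y : G} (hy : y ∈ Y) (hy1 : y ≠ 1) : y ∉ Z := fun h => hy1 (t.disj h hy)

/-- `D = C_Q(Y)` has order `81` -/
theorem card_D (t : Two Z Q Y R) : Nat.card ↥(Q ⊓ centralizer (Y : Set G)) = 81 := by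
  obtain ⟨y, hy, hy1⟩ := t.exists_y
  rw [← t.cent_Y hy hy1]
  exact t.h.cent_card (t.YQ hy) (t.notMem hy hy1)

theorem A_le (t : Two Z Q Y R) : Q ⊓ R ≤ Q ⊓ centralizer (Y : Set G) :=
  le_inf inf_le_left (inf_le_right.trans t.h'.leC)

theorem not_le (t : Two Z Q Y R) : ¬ (Q ⊓ centralizer (Y : Set G) ≤ R) := by
  intro hle
  obtain ⟨y, hy, hy1⟩ := t.exists_y
  obtain ⟨y', hy', hyy⟩ := t.h.exists_out (D := Q ⊓ centralizer (Y : Set G)) inf_le_left
    (by rw [t.card_D]; norm_num) (t.YQ hy)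
  have h27 := t.h.cent2_card (t.YQ hy) (t.notMem hy hy1) hy'.1 hyy
  have hle2 : Q ⊓ centralizer (Y : Set G) ≤ Q ⊓ centralizer {y} ⊓ centralizer {y'} := by
    rw [t.cent_Y hy hy1]
    refine le_inf le_rfl ?_
    intro x hx
    rw [Subgroup.mem_centralizer_singleton_iff]
    have h1 := t.h.comm x hx.1 y' hy'.1
    have h2 := t.h'.comm x (hle hx) y' (hle hy')
    have h3 := t.disj h1 h2
    calc x * y' = (x * y' * x⁻¹ * y'⁻¹) * (y' * x) := by group
      _ = y' * x := by rw [h3, one_mul]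
  have hfin := t.h.finiteQ
  have hfin2 : Finite ↥(Q ⊓ centralizer {y} ⊓ centralizer {y'}) :=
    Nat.finite_of_card_ne_zero (by rw [h27]; norm_num)
  have := Subgroup.card_dvd_of_le hle2
  rw [t.card_D, h27] at this
  omega

/-- `|A| = 27` -/
theorem card_A (t : Two Z Q Y R) : Nat.card ↥(Q ⊓ R) = 27 := by
  have hEq : (Q ⊓ centralizer (Y : Set G)) ⊓ R = Q ⊓ R := by
    apply le_antisymm
    · exact le_inf (inf_le_left.trans inf_le_left) inf_le_right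
    · exact le_inf t.A_le inf_le_right
  -- the relative index
  set D := Q ⊓ centralizer (Y : Set G)
  set C' := centralizer (Y : Set G) with hC'
  have hDC : D ≤ C' := inf_le_right
  have hRn : (R.subgroupOf C').Normal := by
    rw [Subgroup.normal_subgroupOf_iff_le_normalizer t.h'.leC]
    intro g hg
    exact t.h'.normQ hg
  have hidx : (R.subgroupOf C').index = 24 := by
    have h1 := Subgroup.card_mul_index (R.subgroupOf C')
    rw [t.h'.cardC, Nat.card_congr (Subgroup.subgroupOfEquivOfLe t.h'.leC).toEquiv, t.h'.cardQ] at h1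
    omega
  have h2 : (R.subgroupOf C').relIndex (D.subgroupOf C') ∣ 24 := by
    rw [← hidx]
    exact Subgroup.relIndex_dvd_index_of_normal _ _
  have h3 : (R.subgroupOf C').relIndex (D.subgroupOf C') = R.relIndex D := by
    exact Subgroup.relIndex_subgroupOf hDC
  rw [h3] at h2
  have h4 : R.relIndex D ∣ 81 := by
    rw [← t.card_D]
    exact Subgroup.relIndex_dvd_card R D
  have h5 : R.relIndex D ∣ 3 := by
    have := Nat.dvd_gcd h2 h4
    norm_num at this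
    exact this
  have h6 : R.relIndex D ≠ 1 := by
    intro h7
    exact t.not_le (Subgroup.relIndex_eq_one.1 h7)
  have h7 : R.relIndex D = 3 := ((Nat.dvd_prime Nat.prime_three).1 h5).resolve_left h6
  have h8 := Subgroup.relIndex_mul_relIndex (⊥ : Subgroup G) (D ⊓ R) D bot_le inf_le_left
  rw [Subgroup.relIndex_bot_left, Subgroup.relIndex_bot_left, t.card_D, Subgroup.inf_relIndex_left, h7, hEq] at h8
  omega

/-- `A` is abelian -/
theorem comm_A (t : Two Z Q Y R) {a b : G} (ha : a ∈ Q ⊓ R) (hb : b ∈ Q ⊓ R) : a * b = b * a := by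
  have h1 := t.h.comm a ha.1 b hb.1
  have h2 := t.h'.comm a ha.2 b hb.2
  have h3 := t.disj h1 h2
  calc a * b = (a * b * a⁻¹ * b⁻¹) * (b * a) := by group
    _ = b * a := by rw [h3, one_mul]

theorem Y_le_A (t : Two Z Q Y R) : Y ≤ Q ⊓ R := le_inf t.YQ t.h'.le

/-- `C_Q(A) = A` -/
theorem cent_A (t : Two Z Q Y R) {x : G} (hx : x ∈ Q) (hxA : ∀ a ∈ Q ⊓ R, x * a = a * x) : x ∈ Q ⊓ R := by
  obtain ⟨y, hy, hy1⟩ := t.exists_y
  obtain ⟨y', hy', hyy⟩ := t.h.exists_out (D := Q ⊓ R) inf_le_left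
    (by rw [t.card_A]; norm_num) (t.YQ hy)
  have h27 := t.h.cent2_card (t.YQ hy) (t.notMem hy hy1) hy'.1 hyy
  have hle2 : Q ⊓ R ≤ Q ⊓ centralizer {y} ⊓ centralizer {y'} := by
    intro a ha
    refine ⟨⟨ha.1, ?_⟩, ?_⟩
    · exact Subgroup.mem_centralizer_singleton_iff.2 (t.comm_A ha (t.Y_le_A hy))
    · exact Subgroup.mem_centralizer_singleton_iff.2 (t.comm_A ha hy')
  have hfin2 : Finite ↥(Q ⊓ centralizer {y} ⊓ centralizer {y'}) :=
    Nat.finite_of_card_ne_zero (by rw [h27]; norm_num)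
  have hEq : Q ⊓ R = Q ⊓ centralizer {y} ⊓ centralizer {y'} :=
    Subgroup.eq_of_le_of_card_ge hle2 (by rw [h27, t.card_A])
  rw [hEq]
  refine ⟨⟨hx, ?_⟩, ?_⟩
  · exact Subgroup.mem_centralizer_singleton_iff.2 (hxA y (t.Y_le_A hy))
  · exact Subgroup.mem_centralizer_singleton_iff.2 (hxA y' hy')

theorem Z_le_A (t : Two Z Q Y R) : Z ≤ Q ⊓ R := by
  intro z hz
  apply t.cent_A (t.h.le hz)
  intro a ha
  exact Subgroup.mem_centralizer_iff.1 (t.h.leC ha.1) z hz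

/-- the symmetric situation -/
theorem symm (t : Two Z Q Y R) : Two Y R Z Q :=
  ⟨t.h', t.h, t.Z_le_A.trans inf_le_right, t.ne.symm⟩

theorem eq_or_inv {W : Subgroup G} (hW : Nat.card ↥W = 3) {x y : G} (hx : x ∈ W) (hy : y ∈ W) (hx1 : x ≠ 1)
    (hy1 : y ≠ 1) : x = y ∨ x = y⁻¹ := by
  have hc3 : Nat.card ↥(zpowers y) = 3 := by
    have h3 : Nat.card ↥(zpowers y) ∣ 3 := by
      rw [← hW]; exact Subgroup.card_dvd_of_le (by rwa [Subgroup.zpowers_le])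
    rcases (Nat.dvd_prime Nat.prime_three).1 h3 with h | h
    · exfalso; apply hy1
      have := Subgroup.eq_bot_of_card_eq _ h
      rwa [Subgroup.zpowers_eq_bot] at this
    · exact h
  have hz : zpowers y = W := eq_of_mem_ne_one hc3 hW hy1 (Subgroup.mem_zpowers y) hy
  rw [← hz] at hx
  obtain ⟨k, rfl⟩ := Subgroup.mem_zpowers_iff.1 hx
  have hord : orderOf y = 3 := by rw [← Nat.card_zpowers]; exact hc3
  have h3 : y ^ (3 : ℤ) = 1 := by
    have := pow_orderOf_eq_one y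
    rw [hord] at this
    exact_mod_cast this
  have hk : k % 3 = 0 ∨ k % 3 = 1 ∨ k % 3 = 2 := by omega
  rcases hk with h | h | h
  · exfalso; apply hx1
    rw [show k = 3 * (k / 3) by omega, zpow_mul, h3, one_zpow]
  · left
    rw [show k = 3 * (k / 3) + 1 by omega, zpow_add, zpow_mul, h3, one_zpow, one_mul, zpow_one]
  · right
    rw [show k = 3 * (k / 3 + 1) + (-1) by omega, zpow_add, zpow_mul, h3, one_zpow, one_mul, zpow_neg_one]

/-- `g` acts trivially on `A / ZY` -/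
def Sm (Z Q Y R : Subgroup G) (g : G) : Prop := ∀ a ∈ Q ⊓ R, g * a * g⁻¹ * a⁻¹ ∈ Z ⊔ Y

theorem B_le (t : Two Z Q Y R) : Z ⊔ Y ≤ Q ⊓ R := sup_le t.Z_le_A t.Y_le_A

theorem Sm.mul (t : Two Z Q Y R) {g h : G} (hg : Sm Z Q Y R g) (hh : Sm Z Q Y R h) : Sm Z Q Y R (g * h) := by
  intro a ha
  have h1 := hh a ha
  have h2 := hg _ (t.B_le h1)
  have h3 := hg a ha
  have h4 := (Z ⊔ Y).mul_mem h2 ((Z ⊔ Y).mul_mem h1 h3)
  have h5 : g * (h * a * h⁻¹ * a⁻¹) * g⁻¹ * (h * a * h⁻¹ * a⁻¹)⁻¹ * ((h * a * h⁻¹ * a⁻¹) * (g * a * g⁻¹ * a⁻¹))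
      = g * h * a * (g * h)⁻¹ * a⁻¹ := by group
  rwa [h5] at h4

theorem Sm.mem (t : Two Z Q Y R) {g : G} (hg : Sm Z Q Y R g) {a : G} (ha : a ∈ Q ⊓ R) : g * a * g⁻¹ ∈ Q ⊓ R := by
  have h1 := (Q ⊓ R).mul_mem (t.B_le (hg a ha)) ha
  have h2 : g * a * g⁻¹ * a⁻¹ * a = g * a * g⁻¹ := by group
  rwa [h2] at h1

theorem Sm.of_Q (t : Two Z Q Y R) {q : G} (hq : q ∈ Q) : Sm Z Q Y R q := fun a ha =>
  (le_sup_left : Z ≤ Z ⊔ Y) (t.h.comm q hq a ha.1)

theorem Sm.of_R (t : Two Z Q Y R) {q : G} (hq : q ∈ R) : Sm Z Q Y R q := fun a ha =>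
  (le_sup_right : Y ≤ Z ⊔ Y) (t.h'.comm q hq a ha.2)

/-- the element `g` of `⟨Q, R⟩` swapping `Z` and `Y` -/
theorem exists_swap (t : Two Z Q Y R) : ∃ z ∈ Z, ∃ y ∈ Y, z ≠ 1 ∧ y ≠ 1 ∧ ∃ g : G, Sm Z Q Y R g ∧
    g * z * g⁻¹ = y⁻¹ ∧ g * y * g⁻¹ = z := by
  obtain ⟨y, hy, hy1⟩ := t.exists_y
  obtain ⟨q, hq, hqy⟩ : ∃ q ∈ Q, y * q ≠ q * y := by
    by_contra hcon
    push Not at hcon
    exact t.notMem hy hy1 (t.h.cen y (t.YQ hy) hcon)
  have hzmem := t.h.comm q hq y (t.YQ hy)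
  set z := q * y * q⁻¹ * y⁻¹ with hz
  have hz1 : z ≠ 1 := by
    intro h1
    apply hqy
    have : q * y * q⁻¹ = y := by
      have := congrArg (· * y) h1
      simpa [hz] using this
    calc y * q = q * y * q⁻¹ * q := by rw [this]
      _ = q * y := by group
  have hqz : q * y * q⁻¹ = z * y := by rw [hz]; group
  clear_value z
  have hZR : Z ≤ R := t.symm.YQ
  obtain ⟨r, hr, hrz⟩ : ∃ r ∈ R, r * z * r⁻¹ = y⁻¹ * z := by
    obtain ⟨r, hr, hrz⟩ : ∃ r ∈ R, z * r ≠ r * z := by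
      by_contra hcon
      push Not at hcon
      exact t.symm.notMem hzmem hz1 (t.h'.cen z (hZR hzmem) hcon)
    have h1 := t.h'.comm r hr z (hZR hzmem)
    have h2 : r * z * r⁻¹ * z⁻¹ ≠ 1 := by
      intro h3
      apply hrz
      have h4 : r * z * r⁻¹ = z := by
        have := congrArg (· * z) h3
        simpa using this
      calc z * r = r * z * r⁻¹ * r := by rw [h4]
        _ = r * z := by group
    have hyR := t.h'.le hy
    have hyr : y * r = r * y := Subgroup.mem_centralizer_iff.1 (t.h'.leC hr) y hy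
    rcases eq_or_inv t.h'.cardZ h1 hy h2 hy1 with h3 | h3
    · refine ⟨r⁻¹, R.inv_mem hr, ?_⟩
      have h4 : r * z * r⁻¹ = y * z := by rw [← h3]; group
      have h5 : r⁻¹ * y = y * r⁻¹ := by
        calc r⁻¹ * y = r⁻¹ * (y * r) * r⁻¹ := by group
          _ = r⁻¹ * (r * y) * r⁻¹ := by rw [hyr]
          _ = y * r⁻¹ := by group
      have h6 : z = r⁻¹ * (y * z) * r := by rw [← h4]; group
      have h7 : z = y * (r⁻¹ * z * r⁻¹⁻¹) := by
        calc z = r⁻¹ * (y * z) * r := h6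
          _ = (r⁻¹ * y) * z * r := by group
          _ = (y * r⁻¹) * z * r := by rw [h5]
          _ = y * (r⁻¹ * z * r⁻¹⁻¹) := by group
      calc r⁻¹ * z * r⁻¹⁻¹ = y⁻¹ * (y * (r⁻¹ * z * r⁻¹⁻¹)) := by group
        _ = y⁻¹ * z := by rw [← h7]
    · refine ⟨r, hr, ?_⟩
      rw [← h3]; group
  have hcomm : y * z = z * y := t.comm_A (t.Y_le_A hy) (t.Z_le_A hzmem)
  have hqz' : q * z * q⁻¹ = z := by
    have := Subgroup.mem_centralizer_iff.1 (t.h.leC hq) z hzmem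
    rw [← this]; group
  have hry' : r * y * r⁻¹ = y := by
    have := Subgroup.mem_centralizer_iff.1 (t.h'.leC hr) y hy
    rw [← this]; group
  refine ⟨z, hzmem, y, hy, hz1, hy1, q * r * q, ?_, ?_, ?_⟩
  · exact ((Sm.of_Q t hq).mul t (Sm.of_R t hr)).mul t (Sm.of_Q t hq)
  · calc q * r * q * z * (q * r * q)⁻¹ = q * (r * (q * z * q⁻¹) * r⁻¹) * q⁻¹ := by group
      _ = q * (y⁻¹ * z) * q⁻¹ := by rw [hqz', hrz]
      _ = (q * y * q⁻¹)⁻¹ * (q * z * q⁻¹) := by group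
      _ = (z * y)⁻¹ * z := by rw [hqz, hqz']
      _ = y⁻¹ := by group
  · calc q * r * q * y * (q * r * q)⁻¹ = q * (r * (q * y * q⁻¹) * r⁻¹) * q⁻¹ := by group
      _ = q * ((r * z * r⁻¹) * (r * y * r⁻¹)) * q⁻¹ := by rw [hqz]; group
      _ = q * (y⁻¹ * z * y) * q⁻¹ := by rw [hrz, hry']
      _ = q * z * q⁻¹ := by rw [mul_assoc y⁻¹, ← hcomm]; group
      _ = z := hqz'

/-- the element `τ` -/
structure Tau (Z Q Y R : Subgroup G) (τ : G) : Prop where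
  zinv : ∀ z ∈ Z, τ * z * τ⁻¹ = z⁻¹
  yinv : ∀ z ∈ Y, τ * z * τ⁻¹ = z⁻¹
  sm : Sm Z Q Y R τ

theorem inv_of_gen {W : Subgroup G} (hW : Nat.card ↥W = 3) {x τ : G} (hx : x ∈ W) (hx1 : x ≠ 1)
    (h : τ * x * τ⁻¹ = x⁻¹) : ∀ w ∈ W, τ * w * τ⁻¹ = w⁻¹ := by
  intro w hw
  by_cases hw1 : w = 1
  · rw [hw1]; simp
  rcases eq_or_inv hW hw hx hw1 hx1 with h1 | h1
  · rw [h1]; exact h
  · rw [h1]
    have := congrArg (·⁻¹) h
    simp only [mul_inv_rev, inv_inv] at this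
    rw [← mul_assoc] at this
    rw [inv_inv]; exact this

theorem exists_tau (t : Two Z Q Y R) : ∃ τ, Tau Z Q Y R τ := by
  obtain ⟨z, hz, y, hy, hz1, hy1, g, hg, h1, h2⟩ := t.exists_swap
  refine ⟨g * g, inv_of_gen t.h.cardZ hz hz1 ?_, inv_of_gen t.h'.cardZ hy hy1 ?_, hg.mul t hg⟩
  · calc g * g * z * (g * g)⁻¹ = g * (g * z * g⁻¹) * g⁻¹ := by group
      _ = (g * y * g⁻¹)⁻¹ := by rw [h1]; group
      _ = z⁻¹ := by rw [h2]
  · calc g * g * y * (g * g)⁻¹ = g * (g * y * g⁻¹) * g⁻¹ := by group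
      _ = y⁻¹ := by rw [h2, h1]

theorem Tau.symm (t : Two Z Q Y R) {τ : G} (h : Tau Z Q Y R τ) : Tau Y R Z Q τ := by
  refine ⟨h.yinv, h.zinv, ?_⟩
  intro a ha
  rw [sup_comm]
  exact h.sm a ⟨ha.2, ha.1⟩

theorem Tau.normQ (t : Two Z Q Y R) {τ : G} (h : Tau Z Q Y R τ) {q : G} (hq : q ∈ Q) : τ * q * τ⁻¹ ∈ Q := by
  apply t.h.normZ τ ?_ q hq
  intro z hz
  rw [h.zinv z hz]; exact Z.inv_mem hz

theorem Tau.centZ (t : Two Z Q Y R) {τ : G} (h : Tau Z Q Y R τ) {q : G} (hq : q ∈ centralizer (Z : Set G)) :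
    τ * q * τ⁻¹ ∈ centralizer (Z : Set G) := by
  rw [Subgroup.mem_centralizer_iff] at hq ⊢
  intro z hz
  have h1 := hq z⁻¹ (Z.inv_mem hz)
  have h2 : z = τ * z⁻¹ * τ⁻¹ := by rw [h.zinv _ (Z.inv_mem hz), inv_inv]
  calc z * (τ * q * τ⁻¹) = τ * z⁻¹ * τ⁻¹ * (τ * q * τ⁻¹) := by rw [← h2]
    _ = τ * (z⁻¹ * q) * τ⁻¹ := by group
    _ = τ * (q * z⁻¹) * τ⁻¹ := by rw [h1]
    _ = τ * q * τ⁻¹ * (τ * z⁻¹ * τ⁻¹) := by group
    _ = τ * q * τ⁻¹ * z := by rw [← h2]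

/-- `τ` inverts `D / A` -/
theorem Tau.inv_D (t : Two Z Q Y R) {τ : G} (h : Tau Z Q Y R τ) {w : G} (hw : w ∈ Q)
    (hwY : w ∈ centralizer (Y : Set G)) : τ * w * τ⁻¹ * w ∈ Q ⊓ R := by
  have hw' : τ * w * τ⁻¹ ∈ Q := h.normQ t hw
  have hwY' : τ * w * τ⁻¹ ∈ centralizer (Y : Set G) := (h.symm t).centZ t.symm hwY
  apply t.cent_A (Q.mul_mem hw' hw)
  intro a ha
  obtain ⟨β, hβ, hβa⟩ : ∃ β ∈ Z ⊔ Y, τ * a * τ⁻¹ = β * a := ⟨_, h.sm a ha, by group⟩
  have hβA : β ∈ Q ⊓ R := t.B_le hβ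
  -- `w' = τ w τ⁻¹` commutes with `β`
  have hwβ : (τ * w * τ⁻¹) * β = β * (τ * w * τ⁻¹) := by
    have hle : Z ⊔ Y ≤ centralizer ({τ * w * τ⁻¹} : Set G) := by
      apply sup_le
      · intro z hz
        rw [Subgroup.mem_centralizer_singleton_iff]
        exact Subgroup.mem_centralizer_iff.1 (t.h.leC hw') z hz
      · intro y hy
        rw [Subgroup.mem_centralizer_singleton_iff]
        exact Subgroup.mem_centralizer_iff.1 hwY' y hy
    exact (Subgroup.mem_centralizer_singleton_iff.1 (hle hβ)).symm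
  set c := w * a * w⁻¹ * a⁻¹ with hc
  have hcZ : c ∈ Z := t.h.comm w hw a ha.1
  have h1 : τ * c * τ⁻¹ = c⁻¹ := h.zinv c hcZ
  have h2 : τ * c * τ⁻¹ = (τ * w * τ⁻¹) * (β * a) * (τ * w * τ⁻¹)⁻¹ * (β * a)⁻¹ := by
    rw [← hβa, hc]; group
  have h3 : (τ * w * τ⁻¹) * (β * a) * (τ * w * τ⁻¹)⁻¹ * (β * a)⁻¹
      = β * ((τ * w * τ⁻¹) * a * (τ * w * τ⁻¹)⁻¹ * a⁻¹) * β⁻¹ := by
    calc _ = ((τ * w * τ⁻¹) * β) * a * (τ * w * τ⁻¹)⁻¹ * a⁻¹ * β⁻¹ := by group
      _ = (β * (τ * w * τ⁻¹)) * a * (τ * w * τ⁻¹)⁻¹ * a⁻¹ * β⁻¹ := by rw [hwβ]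
      _ = _ := by group
  set c' := (τ * w * τ⁻¹) * a * (τ * w * τ⁻¹)⁻¹ * a⁻¹ with hc'
  have hc'Z : c' ∈ Z := t.h.comm _ hw' a ha.1
  have h4 : β * c' * β⁻¹ = c' := by
    have := Subgroup.mem_centralizer_iff.1 (t.h.leC hβA.1) c' hc'Z
    rw [← this]; group
  have h5 : c' = c⁻¹ := by rw [← h4, ← h3, ← h2, h1]
  -- conclusion
  have h6 : (τ * w * τ⁻¹) * c = c * (τ * w * τ⁻¹) :=
    (Subgroup.mem_centralizer_iff.1 (t.h.leC hw') c hcZ).symm
  have e1 : w * a = c * (a * w) := by rw [hc]; group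
  have e2 : (τ * w * τ⁻¹) * a = c⁻¹ * (a * (τ * w * τ⁻¹)) := by rw [← h5, hc']; group
  calc τ * w * τ⁻¹ * w * a = (τ * w * τ⁻¹) * (w * a) := by group
    _ = (τ * w * τ⁻¹) * (c * (a * w)) := by rw [e1]
    _ = ((τ * w * τ⁻¹) * c) * (a * w) := by group
    _ = (c * (τ * w * τ⁻¹)) * (a * w) := by rw [h6]
    _ = c * ((τ * w * τ⁻¹) * a) * w := by group
    _ = c * (c⁻¹ * (a * (τ * w * τ⁻¹))) * w := by rw [e2]
    _ = a * (τ * w * τ⁻¹ * w) := by group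

end Two

end Cfsg.Agent.H352.L43
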