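import Mathlib
import Cfsg.Agent.H352.L43.Two

/-!
# The action of `SL(2,3)` on `Q / Z` and the invariance of `A = Q ∩ R` (helper352)
-/

set_option autoImplicit false

namespace Cfsg.Agent.H352.L43

open scoped commutatorElement IsMulCommutative
open Subgroup

/-- `SL(2,3)` -/
abbrev S3 := Matrix.SpecialLinearGroup (Fin 2) (ZMod 3)

/-- element of order 4 -/
def i0 : S3 := ⟨!![0, -1; 1, 0], by decide⟩
/-- element of order 4 -/
def j0 : S3 := ⟨!![1, 1; 1, -1], by decide⟩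
/-- element of order 3 -/
def u0 : S3 := ⟨!![1, 1; 0, 1], by decide⟩

theorem r1 : i0 * i0 = -1 := by decide
theorem r2 : j0 * j0 = -1 := by decide
theorem r3 : j0 * i0 = (-1) * (i0 * j0) := by decide
theorem r4 : u0 * i0 = j0 * u0 := by decide
theorem r5 : u0 * j0 = i0 * j0 * u0 := by decide
theorem r6 : u0 * u0 * u0 = 1 := by decide

set_option maxRecDepth 100000 in
theorem gen : ∀ g : S3, ∃ a : Fin 4, ∃ b : Fin 2, ∃ c : Fin 3, g = i0 ^ a.val * j0 ^ b.val * u0 ^ c.val := by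
  decide

set_option maxRecDepth 100000 in
theorem conj_u : ∀ u : S3, u ≠ 1 → u * u * u = 1 → ∃ h : S3, h * u * h⁻¹ = u0 ∨ h * u⁻¹ * h⁻¹ = u0 := by
  decide

variable {G : Type*} [Group G] {Z Q : Subgroup G}

/-- `C_G(Z) / Q ≅ SL(2,3)` -/
structure Cov (Z Q : Subgroup G) (π : ↥(centralizer (Z : Set G)) →* S3) : Prop where
  surj : Function.Surjective π
  ker : ∀ c, π c = 1 ↔ (c : G) ∈ Q

/-- the module -/
abbrev MM (Q : Subgroup G) := Additive (Abelianization ↥Q)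

/-- the action of `C_G(Z)` -/
noncomputable def Cfg.actC (h : Cfg Z Q) : ↥(centralizer (Z : Set G)) →* AddMonoid.End (MM Q) :=
  (act Q).comp (Subgroup.inclusion fun _ hg => h.normQ hg)

theorem Cfg.actC_bar (h : Cfg Z Q) (c : ↥(centralizer (Z : Set G))) (a b : ↥Q)
    (hb : (b : G) = c * a * (c : G)⁻¹) : h.actC c (bar a) = bar b :=
  act_bar Q _ a b hb

theorem act_of_mem {g : ↥(normalizer (Q : Set G))} (hg : (g : G) ∈ Q) (x : MM Q) : act Q g x = x := by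
  obtain ⟨a, rfl⟩ := bar_surj x
  rw [act_bar Q g a (⟨g, hg⟩ * a * ⟨g, hg⟩⁻¹) rfl, bar_mul, bar_mul, bar_inv]
  abel

theorem Cfg.actC_of_mem (h : Cfg Z Q) {c : ↥(centralizer (Z : Set G))} (hc : (c : G) ∈ Q) (x : MM Q) :
    h.actC c x = x := act_of_mem (g := Subgroup.inclusion (fun _ hg => h.normQ hg) c) hc x

theorem Cfg.actC_eq (h : Cfg Z Q) {π : ↥(centralizer (Z : Set G)) →* S3} (hπ : Cov Z Q π)
    {c c' : ↥(centralizer (Z : Set G))} (hcc : π c = π c') : h.actC c = h.actC c' := by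
  have h1 : π (c * c'⁻¹) = 1 := by rw [map_mul, map_inv, hcc, mul_inv_cancel]
  have h2 := (hπ.ker _).1 h1
  have h3 : c = (c * c'⁻¹) * c' := by group
  rw [h3, map_mul]
  ext x
  exact h.actC_of_mem h2 _

/-- the representation of `SL(2,3)` -/
noncomputable def Cfg.rho (h : Cfg Z Q) {π : ↥(centralizer (Z : Set G)) →* S3} (hπ : Cov Z Q π) :
    S3 →* AddMonoid.End (MM Q) where
  toFun g := h.actC (Function.surjInv hπ.surj g)
  map_one' := by
    rw [← map_one h.actC]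
    apply h.actC_eq hπ
    rw [Function.surjInv_eq hπ.surj, map_one]
  map_mul' g g' := by
    rw [← map_mul]
    apply h.actC_eq hπ
    rw [map_mul, Function.surjInv_eq hπ.surj, Function.surjInv_eq hπ.surj, Function.surjInv_eq hπ.surj]

theorem Cfg.rho_pi (h : Cfg Z Q) {π : ↥(centralizer (Z : Set G)) →* S3} (hπ : Cov Z Q π)
    (c : ↥(centralizer (Z : Set G))) : h.rho hπ (π c) = h.actC c :=
  h.actC_eq hπ (Function.surjInv_eq hπ.surj _)

/-- the form -/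
noncomputable def Cfg.form (h : Cfg Z Q) : MM Q →+ MM Q →+ Additive ↥(center ↥Q) := pair h.hc

theorem Cfg.form_bar (h : Cfg Z Q) (a b : ↥Q) : h.form (bar a) (bar b) = Additive.ofMul ⟨⁅a, b⁆, h.hc a b⟩ := rfl

theorem Cfg.form_bar_eq_zero (h : Cfg Z Q) (a b : ↥Q) : h.form (bar a) (bar b) = 0 ↔ (a : G) * b = b * a := by
  rw [h.form_bar]
  constructor
  · intro h1
    have h2 : ⁅a, b⁆ = 1 := congrArg (fun x => (Additive.toMul x).1) h1
    rw [commutatorElement_eq_one_iff_mul_comm] at h2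
    exact congrArg Subtype.val h2
  · intro h1
    have h2 : ⁅a, b⁆ = 1 := by
      rw [commutatorElement_eq_one_iff_mul_comm]; exact Subtype.ext h1
    have h3 : (⟨⁅a, b⁆, h.hc a b⟩ : ↥(center ↥Q)) = 1 := Subtype.ext h2
    rw [h3]; rfl

theorem Cfg.form_actC (h : Cfg Z Q) (c : ↥(centralizer (Z : Set G))) (x y : MM Q) :
    h.form (h.actC c x) (h.actC c y) = h.form x y := by
  obtain ⟨a, rfl⟩ := bar_surj x
  obtain ⟨b, rfl⟩ := bar_surj y
  rw [h.actC_bar c a ⟨c * a * (c : G)⁻¹, h.normQ' c.2 a.2⟩ rfl,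
    h.actC_bar c b ⟨c * b * (c : G)⁻¹, h.normQ' c.2 b.2⟩ rfl, h.form_bar, h.form_bar]
  congr 1
  apply Subtype.ext
  apply Subtype.ext
  show (c : G) * (a : G) * (c : G)⁻¹ * ((c : G) * (b : G) * (c : G)⁻¹) * ((c : G) * (a : G) * (c : G)⁻¹)⁻¹ *
    ((c : G) * (b : G) * (c : G)⁻¹)⁻¹ = a * b * (a : G)⁻¹ * (b : G)⁻¹
  have h1 := h.comm a.1 a.2 b.1 b.2
  have h2 := Subgroup.mem_centralizer_iff.1 c.2 _ h1
  calc _ = (c : G) * ((a : G) * b * (a : G)⁻¹ * (b : G)⁻¹) * (c : G)⁻¹ := by group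
    _ = ((a : G) * b * (a : G)⁻¹ * (b : G)⁻¹) * c * (c : G)⁻¹ := by rw [← h2]
    _ = _ := by group

theorem Cfg.form_two (h : Cfg Z Q) (a : Additive ↥(center ↥Q)) (ha : a + a = 0) : a = 0 := by
  have h1 : (Additive.toMul a) ^ 2 = 1 := by
    rw [pow_two]; exact congrArg Additive.toMul ha
  have h2 : (Additive.toMul a) ^ 3 = 1 := by
    rw [← h.card_center]; exact pow_card_eq_one'
  have h3 : Additive.toMul a = 1 := by
    calc Additive.toMul a = (Additive.toMul a) ^ 3 * ((Additive.toMul a) ^ 2)⁻¹ := by group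
      _ = 1 := by rw [h1, h2]; simp
  exact congrArg Additive.ofMul h3

/-- invariants of the representation -/
structure Good (h : Cfg Z Q) (π : ↥(centralizer (Z : Set G)) →* S3) : Prop where
  neg : ∀ c, π c = -1 → ∀ x, h.actC c x = -x
  W : ∃ W : AddSubgroup (MM Q), Nat.card ↥W = 9 ∧ ∀ c, ∀ x ∈ W, h.actC c x ∈ W

theorem Cfg.ops (h : Cfg Z Q) {π : ↥(centralizer (Z : Set G)) →* S3} (hπ : Cov Z Q π)
    (hg : ∀ c, π c = -1 → ∀ x, h.actC c x = -x) : Ops (h.rho hπ i0) (h.rho hπ j0) (h.rho hπ u0) := by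
  have hneg : h.rho hπ (-1) = -1 := by
    obtain ⟨c, hc⟩ := hπ.surj (-1)
    rw [← hc, h.rho_pi hπ]
    ext x
    exact hg c hc x
  refine ⟨?_, ?_, ?_, ?_, ?_, ?_, ?_⟩
  · ext x
    have h3 := h.three_M x
    have : (3 : AddMonoid.End (MM Q)) = 1 + 1 + 1 := by norm_num
    rw [this]
    exact h3
  · rw [← map_mul, r1, hneg]
  · rw [← map_mul, r2, hneg]
  · rw [← map_mul, r3, map_mul, hneg, map_mul]
    ext x
    rfl
  · rw [← map_mul, r4, map_mul]
  · rw [← map_mul, r5, map_mul, map_mul]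
  · rw [← map_mul, ← map_mul, r6, map_one]

theorem Cfg.isForm (h : Cfg Z Q) {π : ↥(centralizer (Z : Set G)) →* S3} (hπ : Cov Z Q π) :
    Form (h.rho hπ i0) (h.rho hπ j0) (h.rho hπ u0) h.form := by
  have hinv : ∀ g x y, h.form (h.rho hπ g x) (h.rho hπ g y) = h.form x y := by
    intro g x y
    obtain ⟨c, rfl⟩ := hπ.surj g
    rw [h.rho_pi hπ, h.form_actC]
  refine ⟨h.form_two, ?_, ?_, hinv i0, hinv j0, hinv u0⟩
  · intro x
    obtain ⟨a, rfl⟩ := bar_surj x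
    rw [h.form_bar_eq_zero]
  · intro x hx
    obtain ⟨a, rfl⟩ := bar_surj x
    rw [h.bar_eq_zero_iff]
    apply h.cen a.1 a.2
    intro b hb
    exact (h.form_bar_eq_zero a ⟨b, hb⟩).1 (hx _)

/-- invariance under the three generators implies invariance under `C_G(Z)` -/
theorem Cfg.inv_of (h : Cfg Z Q) {π : ↥(centralizer (Z : Set G)) →* S3} (hπ : Cov Z Q π) {X : AddSubgroup (MM Q)}
    (hI : ∀ x ∈ X, h.rho hπ i0 x ∈ X) (hJ : ∀ x ∈ X, h.rho hπ j0 x ∈ X) (hU : ∀ x ∈ X, h.rho hπ u0 x ∈ X)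
    (c : ↥(centralizer (Z : Set G))) : ∀ x ∈ X, h.actC c x ∈ X := by
  have hpow : ∀ (g : S3), (∀ x ∈ X, h.rho hπ g x ∈ X) → ∀ n : ℕ, ∀ x ∈ X, h.rho hπ (g ^ n) x ∈ X := by
    intro g hg n
    induction n with
    | zero => intro x hx; rw [pow_zero, map_one]; exact hx
    | succ n ih => intro x hx; rw [pow_succ', map_mul]; exact hg _ (ih x hx)
  intro x hx
  rw [← h.rho_pi hπ]
  obtain ⟨a, b, c', he⟩ := gen (π c)
  rw [he, map_mul, map_mul]
  exact hpow i0 hI a.val _ (hpow j0 hJ b.val _ (hpow u0 hU c'.val _ hx))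

theorem Good.U_eq {h : Cfg Z Q} {π : ↥(centralizer (Z : Set G)) →* S3} (hg : Good h π) (hπ : Cov Z Q π) :
    h.rho hπ u0 = 1 + Ops.s (h.rho hπ i0) (h.rho hπ j0) := by
  have hfin := h.finiteQ
  have hfinM : Finite (MM Q) := Nat.finite_of_card_ne_zero (by rw [h.card_M]; norm_num)
  obtain ⟨W, hW9, hW⟩ := hg.W
  have hW' : ∀ g, ∀ x ∈ W, h.rho hπ g x ∈ W := by
    intro g x hx
    obtain ⟨c, rfl⟩ := hπ.surj g
    rw [h.rho_pi hπ]; exact hW c x hx
  exact Form.U_eq (h.ops hπ hg.neg) (h.isForm hπ) (hW' i0) (hW' j0) (hW' u0) hW9 h.card_M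

end Cfsg.Agent.H352.L43
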