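import Mathlib
import Cfsg.Agent.S0051
import Cfsg.Agent.H352.L43.Simple

/-!
# The case `G = N_G(A)`: `A` has a complement (helper352)
-/

set_option autoImplicit false

namespace Cfsg.Agent.H352.L43

open scoped commutatorElement IsMulCommutative
open Subgroup

variable {G : Type*} [Group G] {Z Q A : Subgroup G}

/-- an element of `C_G(Z)` acting trivially on `A / Z` lies in `Q` -/
theorem Loc43.faithful (h : Loc43 Z Q A) {π : ↥(centralizer (Z : Set G)) →* S3} (hπ : Cov Z Q π)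
    (hg : Good h.cfg π) (c : ↥(centralizer (Z : Set G))) (hc : ∀ v ∈ barS Q A, h.cfg.actC c v = v) :
    (c : G) ∈ Q := by
  have hA : ∀ c ∈ centralizer (Z : Set G), ∀ a ∈ A, c * a * c⁻¹ ∈ A := fun c hc a ha =>
    (Subgroup.mem_normalizer_iff.1 (h.normC hc) a).1 ha
  have hinv := h.cfg.barS_inv h.ZA hA
  have hrinv : ∀ g : S3, ∀ v ∈ barS Q A, h.cfg.rho hπ g v ∈ barS Q A := by
    intro g v hv; obtain ⟨c, rfl⟩ := hπ.surj g; rw [h.cfg.rho_pi hπ]; exact hinv c v hv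
  set g := π c with hgdef
  have hgN : ∀ v ∈ barS Q A, h.cfg.rho hπ g v = v := by
    intro v hv
    rw [hgdef, h.cfg.rho_pi hπ]; exact hc v hv
  have hmul : ∀ g g' : S3, ∀ v, h.cfg.rho hπ (g * g') v = h.cfg.rho hπ g (h.cfg.rho hπ g' v) := by
    intro g g' v; rw [map_mul]; rfl
  have hone : ∀ v, h.cfg.rho hπ 1 v = v := by intro v; rw [map_one]; rfl
  have hinvN : ∀ v ∈ barS Q A, h.cfg.rho hπ g⁻¹ v = v := by
    intro v hv
    have h1 := hgN v hv
    calc h.cfg.rho hπ g⁻¹ v = h.cfg.rho hπ g⁻¹ (h.cfg.rho hπ g v) := by rw [h1]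
      _ = v := by rw [← hmul, inv_mul_cancel, hone]
  have hconj : ∀ k : S3, ∀ v ∈ barS Q A, h.cfg.rho hπ (k * g⁻¹ * k⁻¹) v = v := by
    intro k v hv
    rw [hmul, hmul, hinvN _ (hrinv _ v hv), ← hmul, mul_inv_cancel, hone]
  have hc : ∀ k : S3, ∀ v ∈ barS Q A, h.cfg.rho hπ (g * (k * g⁻¹ * k⁻¹)) v = v := by
    intro k v hv
    rw [hmul, hconj k v hv, hgN v hv]
  have hm1 : ¬ ∀ v ∈ barS Q A, h.cfg.rho hπ (-1) v = v := by
    intro hall
    obtain ⟨y, hyA, hyZ⟩ : ∃ y ∈ A, y ∉ Z := by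
      by_contra hcon
      push Not at hcon
      have h1 : Nat.card ↥A ∣ Nat.card ↥Z := Subgroup.card_dvd_of_le hcon
      rw [h.cardA, h.cfg.cardZ] at h1
      omega
    have h1 := hall (bar ⟨y, h.AQ hyA⟩) ((h.cfg.bar_mem_barS h.ZA _).2 hyA)
    obtain ⟨c, hc⟩ := hπ.surj (-1)
    rw [← hc, h.cfg.rho_pi hπ, hg.neg c hc] at h1
    have h2 := h.cfg.three_M (bar (⟨y, h.AQ hyA⟩ : ↥Q))
    have h3 : bar (⟨y, h.AQ hyA⟩ : ↥Q) = 0 := by
      nth_rewrite 1 [← h1] at h2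
      rw [neg_add_cancel, zero_add] at h2
      exact h2
    exact hyZ ((h.cfg.bar_eq_zero_iff _).1 h3)
  have hg1 : g = 1 := by
    by_contra hne
    by_cases hgm : g = -1
    · apply hm1; rw [← hgm]; exact hgN
    · obtain ⟨k, hk⟩ := sl_norm g hne hgm
      apply hm1
      intro v hv
      rw [← hk, hmul, hc k v hv, hc k v hv]
  exact (hπ.ker c).1 hg1

/-- linear algebra: the module is `A/Z ⊕ W'` with `W'` invariant and totally isotropic -/
theorem Loc43.exists_W' (h : Loc43 Z Q A) {π : ↥(centralizer (Z : Set G)) →* S3} (hπ : Cov Z Q π)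
    (hg : Good h.cfg π) : ∃ (b : MM Q) (W' : AddSubgroup (MM Q)),
      b ≠ 0 ∧ b ∈ barS Q A ∧ h.cfg.rho hπ u0 b = b ∧
      (∀ x ∈ barS Q A, ∃ l : ℤ, h.cfg.rho hπ u0 x = x + l • b) ∧
      (∀ c, ∀ x ∈ W', h.cfg.actC c x ∈ W') ∧
      (∀ x ∈ W', ∀ y ∈ W', h.cfg.form x y = 0) ∧ (∀ x ∈ W', x ∈ barS Q A → x = 0) ∧
      (∀ y, ∃ w ∈ barS Q A, ∃ x ∈ W', y = w + x) := by
  have hfin := h.cfg.finiteQ
  have hfinM : Finite (MM Q) := Nat.finite_of_card_ne_zero (by rw [h.cfg.card_M]; norm_num)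
  set I := h.cfg.rho hπ i0 with hI
  set J := h.cfg.rho hπ j0 with hJ
  set U := h.cfg.rho hπ u0 with hU
  have hops : Ops I J U := h.cfg.ops hπ hg.neg
  have hform : Form I J U h.cfg.form := h.cfg.isForm hπ
  have hUeq : U = 1 + Ops.s I J := hg.U_eq hπ
  have hUs : ∀ x, U x = x + Ops.s I J x := U_apply hUeq
  have h3 := h.cfg.three_M
  have h3z : ∀ x : MM Q, (3 : ℤ) • x = 0 := by intro x; rw [← h3 x]; abel
  have hA : ∀ c ∈ centralizer (Z : Set G), ∀ a ∈ A, c * a * c⁻¹ ∈ A := fun c hc a ha =>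
    (Subgroup.mem_normalizer_iff.1 (h.normC hc) a).1 ha
  have hinv := h.cfg.barS_inv h.ZA hA
  have hrinv : ∀ g : S3, ∀ v ∈ barS Q A, h.cfg.rho hπ g v ∈ barS Q A := by
    intro g v hv; obtain ⟨c, rfl⟩ := hπ.surj g; rw [h.cfg.rho_pi hπ]; exact hinv c v hv
  set W := barS Q A with hW
  have hW9 : Nat.card ↥W = 9 := by
    have := h.cfg.card_barS h.ZA h.AQ
    rw [h.cardA, ← hW] at this; omega
  have hWiso : ∀ x ∈ W, ∀ y ∈ W, h.cfg.form x y = 0 := by
    intro x hx y hy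
    obtain ⟨a, ha, rfl⟩ := mem_barS.1 hx
    obtain ⟨a', ha', rfl⟩ := mem_barS.1 hy
    rw [h.cfg.form_bar_eq_zero]
    exact h.commA a ha a' ha'
  -- the vector `b`
  obtain ⟨b, hbW, hb0, hUb⟩ : ∃ b ∈ W, b ≠ 0 ∧ U b = b := by
    obtain ⟨w, hw, hw0⟩ : ∃ w ∈ W, w ≠ 0 := by
      by_contra hcon
      push Not at hcon
      have : W = ⊥ := by rw [eq_bot_iff]; intro x hx; exact hcon x hx
      rw [this] at hW9
      simp at hW9
    by_cases hs : Ops.s I J w = 0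
    · exact ⟨w, hw, hw0, by rw [hUs, hs, add_zero]⟩
    · refine ⟨Ops.s I J w, ?_, hs, by rw [hUs, hops.ss', add_zero]⟩
      have : Ops.s I J w = U w - w := by rw [hUs]; abel
      rw [this]
      exact W.sub_mem (hrinv _ w hw) hw
  have hIb := hops.U_Ib hUeq hUb
  -- `W = ⟨b, I b⟩`
  have hWspan : ∀ x ∈ W, ∃ k l : ℤ, x = k • b + l • I b := by
    let P : AddSubgroup (MM Q) := AddSubgroup.zmultiples b ⊔ AddSubgroup.zmultiples (I b)
    have hPm : ∀ x, x ∈ P ↔ ∃ k l : ℤ, x = k • b + l • I b := by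
      intro x
      constructor
      · intro hx
        obtain ⟨u, hu, v, hv, rfl⟩ := AddSubgroup.mem_sup.1 hx
        obtain ⟨k, rfl⟩ := AddSubgroup.mem_zmultiples_iff.1 hu
        obtain ⟨l, rfl⟩ := AddSubgroup.mem_zmultiples_iff.1 hv
        exact ⟨k, l, rfl⟩
      · rintro ⟨k, l, rfl⟩
        exact AddSubgroup.add_mem_sup (AddSubgroup.zsmul_mem_zmultiples b k)
          (AddSubgroup.zsmul_mem_zmultiples (I b) l)
    have hPI : ∀ x ∈ P, I x ∈ P := by
      intro x hx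
      obtain ⟨k, l, rfl⟩ := (hPm x).1 hx
      rw [hPm]
      refine ⟨-l, k, ?_⟩
      rw [map_add, map_zsmul, map_zsmul, hops.II']; simp only [smul_neg, neg_smul]; abel
    have hPle : P ≤ W := by
      intro x hx
      obtain ⟨k, l, rfl⟩ := (hPm x).1 hx
      exact W.add_mem (W.zsmul_mem hbW k) (W.zsmul_mem (hrinv i0 b hbW) l)
    have hP9 : Nat.card ↥P = 9 := by
      apply eq_nine
      · rw [← hW9]; exact AddSubgroup.card_dvd_of_le hPle
      · intro h1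
        have h2 := AddSubgroup.eq_bot_of_card_eq _ h1
        have h4 : b ∈ P := (hPm b).2 ⟨1, 0, by simp⟩
        rw [h2, AddSubgroup.mem_bot] at h4
        exact hb0 h4
      · have := hops.no_three (W := ⊥) (B := P) (by simp) hPI
        rwa [AddSubgroup.relIndex_bot_left] at this
    have hPW : P = W := AddSubgroup.eq_of_le_of_card_ge hPle (by rw [hW9, hP9])
    intro x hx
    rw [← hPW] at hx
    exact (hPm x).1 hx
  have hsIb : Ops.s I J (I b) = b := by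
    have := hUs (I b)
    rw [hIb] at this
    exact (add_left_cancel this).symm
  have hsb : Ops.s I J b = 0 := by
    have := hUs b
    rw [hUb] at this
    simpa using this
  -- reduction mod 3
  have red : ∀ n : ℤ, ∀ x : MM Q, n % 3 = 0 → n • x = 0 := by
    intro n x hn
    rw [show n = (n / 3) * 3 by omega, mul_smul, h3z, smul_zero]
  have red' : ∀ n : ℤ, ∀ x : MM Q, n • x = 0 → n % 3 ≠ 0 → x = 0 := by
    intro n x hx hn
    have hn3 : n % 3 = 1 ∨ n % 3 = 2 := by omega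
    rcases hn3 with h0 | h0
    · rw [show n = (n / 3) * 3 + 1 by omega, add_smul, mul_smul, h3z, smul_zero, zero_add, one_smul] at hx
      exact hx
    · rw [show n = (n / 3 + 1) * 3 + (-1) by omega, add_smul, mul_smul, h3z, smul_zero, zero_add, neg_smul,
        one_smul, neg_eq_zero] at hx
      exact hx
  -- the vector `b0`
  obtain ⟨b0, hb0W, hsb0⟩ : ∃ b0, b0 ∉ W ∧ Ops.s I J b0 = 0 := by
    by_contra hcon
    push Not at hcon
    let sm : MM Q →+ MM Q := (Ops.s (R := AddMonoid.End (MM Q)) I J)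
    have hker : sm.ker ≤ AddSubgroup.zmultiples b := by
      intro x hx
      have hx' : Ops.s I J x = 0 := hx
      have hxW : x ∈ W := by
        by_contra hn; exact hcon x hn hx'
      obtain ⟨k, l, rfl⟩ := hWspan x hxW
      rw [map_add, map_zsmul, map_zsmul, hsb, hsIb, smul_zero, zero_add] at hx'
      by_cases hl : l % 3 = 0
      · rw [red l _ hl, add_zero]; exact AddSubgroup.zsmul_mem_zmultiples b k
      · exact absurd (red' l b hx' hl) hb0
    have hzm : Nat.card ↥(AddSubgroup.zmultiples b) ≤ 3 := by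
      rw [Nat.card_zmultiples]
      apply Nat.le_of_dvd (by norm_num)
      apply addOrderOf_dvd_of_nsmul_eq_zero
      rw [← h3 b]; abel
    have hr : sm.range ≤ sm.ker := by
      rintro _ ⟨x, rfl⟩
      exact hops.ss' x
    have c1 : Nat.card ↥sm.ker ≤ 3 := (Nat.le_of_dvd Nat.card_pos (AddSubgroup.card_dvd_of_le hker)).trans hzm
    have c2 : Nat.card ↥sm.range ≤ Nat.card ↥sm.ker := Nat.le_of_dvd Nat.card_pos (AddSubgroup.card_dvd_of_le hr)
    have c3 := AddSubgroup.card_mul_index sm.ker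
    rw [AddSubgroup.index_ker, h.cfg.card_M] at c3
    nlinarith
  have hUb0 : U b0 = b0 := by rw [hUs, hsb0, add_zero]
  -- `f(b, I b0) ≠ 0`
  have hperp : ∀ y, U y = y → h.cfg.form b y = 0 := by
    intro y hy
    have h4 : h.cfg.form (U (I b)) (U y) = h.cfg.form (I b) y := hform.fU _ _
    rw [hIb, hy, map_add, AddMonoidHom.add_apply] at h4
    simpa using h4
  have hd0 : h.cfg.form b (I b0) ≠ 0 := by
    intro hd
    apply hb0
    apply hform.nd
    intro y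
    obtain ⟨k, l, w, hw, rfl⟩ := hops.span (hrinv i0) hW9 h.cfg.card_M hb0W y
    rw [map_add, map_add, map_zsmul, map_zsmul, hWiso b hbW w hw, hperp b0 hUb0, hd]
    simp
  -- adjust `b0`
  obtain ⟨b', hb'W, hUb', hb'iso⟩ : ∃ b', b' ∉ W ∧ U b' = b' ∧ h.cfg.form b' (I b') = 0 := by
    have hcard3 : Nat.card (Additive ↥(center ↥Q)) = 3 := h.cfg.card_center
    have htop := zmultiples_eq_top_of_prime_card hcard3 hd0
    obtain ⟨m, hm⟩ := AddSubgroup.mem_zmultiples_iff.1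
      (show h.cfg.form b0 (I b0) ∈ AddSubgroup.zmultiples (h.cfg.form b (I b0)) by rw [htop]; trivial)
    refine ⟨b0 + m • b, ?_, ?_, ?_⟩
    · intro hmem
      apply hb0W
      have := W.sub_mem hmem (W.zsmul_mem hbW m)
      rwa [add_sub_cancel_right] at this
    · rw [map_add, map_zsmul, hUb0, hUb]
    · have h5 : h.cfg.form b0 (I b) = h.cfg.form b (I b0) := by
        rw [hform.skew, hform.adjI hops, neg_neg]
      have h6 : h.cfg.form b (I b) = 0 := hWiso b hbW _ (hrinv i0 b hbW)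
      rw [map_add I, map_zsmul I, map_add h.cfg.form, AddMonoidHom.add_apply, map_add, map_add, map_zsmul h.cfg.form,
        AddMonoidHom.zsmul_apply, AddMonoidHom.zsmul_apply, map_zsmul, map_zsmul, h5, h6, ← hm]
      set d := h.cfg.form b (I b0) with hd
      have h7 : (3 : ℤ) • d = 0 := by
        have h8 := h3 (I b0)
        have h9 : h.cfg.form b (I b0 + I b0 + I b0) = 0 := by rw [h8, map_zero]
        rw [map_add, map_add] at h9
        rw [← h9]; abel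
      have h8 : m • d + m • d + (m • d + m • m • (0 : Additive ↥(center ↥Q))) = m • ((3 : ℤ) • d) := by
        rw [smul_zero, smul_zero, add_zero, smul_smul]
        rw [show m * 3 = m + (m + m) by ring, add_smul, add_smul]; abel
      rw [h8, h7, smul_zero]
  -- `W' = ⟨b', I b'⟩`
  let W' : AddSubgroup (MM Q) := AddSubgroup.zmultiples b' ⊔ AddSubgroup.zmultiples (I b')
  have hW'm : ∀ x, x ∈ W' ↔ ∃ k l : ℤ, x = k • b' + l • I b' := by
    intro x
    constructor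
    · intro hx
      obtain ⟨u, hu, v, hv, rfl⟩ := AddSubgroup.mem_sup.1 hx
      obtain ⟨k, rfl⟩ := AddSubgroup.mem_zmultiples_iff.1 hu
      obtain ⟨l, rfl⟩ := AddSubgroup.mem_zmultiples_iff.1 hv
      exact ⟨k, l, rfl⟩
    · rintro ⟨k, l, rfl⟩
      exact AddSubgroup.add_mem_sup (AddSubgroup.zsmul_mem_zmultiples b' k)
        (AddSubgroup.zsmul_mem_zmultiples (I b') l)
  have hJb' := hops.J_fix hUeq hUb'
  have hUIb' := hops.U_Ib hUeq hUb'
  have hW'I : ∀ x ∈ W', I x ∈ W' := by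
    intro x hx
    obtain ⟨k, l, rfl⟩ := (hW'm x).1 hx
    rw [hW'm]
    refine ⟨-l, k, ?_⟩
    rw [map_add, map_zsmul, map_zsmul, hops.II']; simp only [smul_neg, neg_smul]; abel
  have hW'J : ∀ x ∈ W', J x ∈ W' := by
    intro x hx
    obtain ⟨k, l, rfl⟩ := (hW'm x).1 hx
    rw [hW'm]
    refine ⟨k + l, k - l, ?_⟩
    rw [map_add, map_zsmul, map_zsmul, hops.JI', hJb', map_add, hops.II']
    simp only [smul_neg, smul_add, add_smul, sub_smul]; abel
  have hW'U : ∀ x ∈ W', U x ∈ W' := by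
    intro x hx
    obtain ⟨k, l, rfl⟩ := (hW'm x).1 hx
    rw [hW'm]
    refine ⟨k + l, l, ?_⟩
    rw [map_add, map_zsmul, map_zsmul, hUb', hUIb']
    simp only [smul_add, add_smul]; abel
  have hiso2 : h.cfg.form (I b') b' = 0 := by rw [hform.skew, hb'iso, neg_zero]
  refine ⟨b, W', hb0, hbW, hUb, ?_, h.cfg.inv_of hπ hW'I hW'J hW'U, ?_, ?_, ?_⟩
  · intro x hx
    obtain ⟨k, l, rfl⟩ := hWspan x hx
    refine ⟨l, ?_⟩
    rw [hUs, map_add, map_zsmul, map_zsmul, hsb, hsIb, smul_zero, zero_add]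
  · intro x hx y hy
    obtain ⟨k, l, rfl⟩ := (hW'm x).1 hx
    obtain ⟨k', l', rfl⟩ := (hW'm y).1 hy
    rw [map_add h.cfg.form, AddMonoidHom.add_apply, map_add, map_add, map_zsmul h.cfg.form, map_zsmul h.cfg.form,
      AddMonoidHom.zsmul_apply, AddMonoidHom.zsmul_apply, AddMonoidHom.zsmul_apply, AddMonoidHom.zsmul_apply,
      map_zsmul, map_zsmul, map_zsmul, map_zsmul, hform.alt, hform.alt, hb'iso, hiso2]
    simp
  · intro x hx hxW
    obtain ⟨k, l, rfl⟩ := (hW'm x).1 hx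
    have h4 : (k * k + l * l) • b' ∈ W := by
      have h5 := W.sub_mem (W.zsmul_mem hxW k) (W.zsmul_mem (hrinv i0 _ hxW) l)
      have h6 : k • (k • b' + l • I b') - l • h.cfg.rho hπ i0 (k • b' + l • I b') = (k * k + l * l) • b' := by
        rw [← hI, map_add, map_zsmul, map_zsmul, hops.II']
        simp only [smul_add, smul_neg, smul_smul, add_smul]
        rw [mul_comm l k]; abel
      rwa [h6] at h5
    have h7 : (k * k + l * l) % 3 = 0 := by
      by_contra hne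
      apply hb'W
      have hn3 : (k * k + l * l) % 3 = 1 ∨ (k * k + l * l) % 3 = 2 := by omega
      generalize (k * k + l * l) = n at h4 hne hn3
      rcases hn3 with h0 | h0
      · rw [show n = (n / 3) * 3 + 1 by omega, add_smul, mul_smul, h3z, smul_zero, zero_add, one_smul] at h4
        exact h4
      · rw [show n = (n / 3 + 1) * 3 + (-1) by omega, add_smul, mul_smul, h3z, smul_zero, zero_add, neg_smul,
          one_smul] at h4
        simpa using W.neg_mem h4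
    have h8 : k % 3 = 0 ∧ l % 3 = 0 := by
      have hk : k % 3 = 0 ∨ k % 3 = 1 ∨ k % 3 = 2 := by omega
      have hl : l % 3 = 0 ∨ l % 3 = 1 ∨ l % 3 = 2 := by omega
      have e : (k * k + l * l) % 3 = ((k % 3) * (k % 3) + (l % 3) * (l % 3)) % 3 := by
        rw [Int.add_emod, Int.mul_emod, Int.mul_emod l l, ← Int.add_emod]
      rw [h7] at e
      rcases hk with h1 | h1 | h1 <;> rcases hl with h2 | h2 | h2 <;> rw [h1, h2] at e <;> omega
    rw [red k _ h8.1, red l _ h8.2, add_zero]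
  · intro y
    obtain ⟨k, l, w, hw, rfl⟩ := hops.span (hrinv i0) hW9 h.cfg.card_M hb'W y
    exact ⟨w, hw, k • b' + l • I b', (hW'm _).2 ⟨k, l, rfl⟩, by rw [add_assoc]⟩

/-- `Z⟨s⟩`-facts -/
theorem Loc43.comm_of_center {z x : G} (hz : z ∈ Z) (hx : x ∈ centralizer (Z : Set G)) : x * z = z * x :=
  (Subgroup.mem_centralizer_iff.1 hx z hz).symm

/-- **`A` has a complement in `G = N_G(A)`.** -/
theorem Loc43.exists_complement [Finite G] (h : Loc43 Z Q A) {π : ↥(centralizer (Z : Set G)) →* S3}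
    (hπ : Cov Z Q π) (hg : Good h.cfg π) (hN : normalizer (A : Set G) = ⊤) :
    ∃ H : Subgroup G, Subgroup.IsComplement' A H := by
  have hAn : A.Normal := Subgroup.normalizer_eq_top_iff.1 hN
  have hcardG : Nat.card G = 151632 := by
    rw [← h.card_N, hN, Subgroup.card_top]
  obtain ⟨b, W', hb0, hbW, hUb, hUW, hW'inv, hW'iso, hW'int, hspan⟩ := h.exists_W' hπ hg
  have hcfg := h.cfg
  have hQC := h.cfg.leC
  have hexp : ∀ x ∈ Q, x * x * x = 1 := h.cfg.exp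
  have no2 : ∀ x : G, x * x * x = 1 → x = x⁻¹ → x = 1 := by
    intro x hx hx'
    have h1 : x * x = 1 := by nth_rewrite 2 [hx']; exact mul_inv_cancel x
    rw [h1, one_mul] at hx
    exact hx
  -- the involution `t`
  obtain ⟨t, htπ, htt⟩ : ∃ t : ↥(centralizer (Z : Set G)), π t = -1 ∧ t * t = 1 := by
    obtain ⟨c, hc⟩ := hπ.surj (-1)
    refine ⟨c * c * c, ?_, ?_⟩
    · rw [map_mul, map_mul, hc]; decide
    · have h1 : ((c * c : ↥(centralizer (Z : Set G))) : G) ∈ Q := by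
        rw [← hπ.ker, map_mul, hc]; decide
      have h2 := hexp _ h1
      apply Subtype.ext
      calc ((c * c * c * (c * c * c) : ↥(centralizer (Z : Set G))) : G)
          = (c * c : ↥(centralizer (Z : Set G))) * (c * c : ↥(centralizer (Z : Set G))) *
            (c * c : ↥(centralizer (Z : Set G))) := by
              simp only [Subgroup.coe_mul, mul_assoc]
        _ = 1 := h2
  have htt' : (t : G) * t = 1 := congrArg Subtype.val htt
  have htinv : (t : G)⁻¹ = t := inv_eq_of_mul_eq_one_right htt'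
  have htneg : ∀ x, h.cfg.actC t x = -x := hg.neg t htπ
  -- elements of `Q` commuting with `t` lie in `Z`
  have hCQt : ∀ x ∈ Q, (t : G) * x * (t : G)⁻¹ = x → x ∈ Z := by
    intro x hx hxt
    have h1 := h.cfg.actC_bar t ⟨x, hx⟩ ⟨x, hx⟩ hxt.symm
    rw [htneg] at h1
    have h2 := h.cfg.three_M (bar (⟨x, hx⟩ : ↥Q))
    nth_rewrite 1 [← h1] at h2
    rw [neg_add_cancel, zero_add] at h2
    exact (h.cfg.bar_eq_zero_iff _).1 h2
  -- the element `s`
  obtain ⟨s, hsπ, hst⟩ : ∃ s : ↥(centralizer (Z : Set G)), π s = u0 ∧ (s : G) * t * (s : G)⁻¹ = t := by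
    obtain ⟨c, hc⟩ := hπ.surj u0
    set t1 : G := c * t * (c : G)⁻¹ with ht1
    have hq1 : t1 * (t : G)⁻¹ ∈ Q := by
      have h1 : ((c * t * c⁻¹ * t⁻¹ : ↥(centralizer (Z : Set G))) : G) ∈ Q := by
        rw [← hπ.ker, map_mul, map_mul, map_mul, map_inv, map_inv, hc, htπ]; decide
      exact h1
    set q : G := t1 * (t : G)⁻¹ with hq
    have hq3 := hexp q hq1
    have h1t : t1 = q * t := by rw [hq]; group
    have h2 : (t : G) * q⁻¹ * t = q := by
      have h3 : t1 * t1 = 1 := by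
        rw [ht1]
        calc (c : G) * t * (c : G)⁻¹ * (c * t * (c : G)⁻¹) = c * (t * t) * (c : G)⁻¹ := by group
          _ = 1 := by rw [htt']; group
      rw [h1t] at h3
      have h4 : (t : G) * q * t = q⁻¹ := by
        calc (t : G) * q * t = q⁻¹ * (q * t * (q * t)) := by group
          _ = q⁻¹ := by rw [h3, mul_one]
      calc (t : G) * q⁻¹ * t = t * (t * q * t) * t := by rw [h4]
        _ = (t * t) * q * (t * t) := by group
        _ = q := by rw [htt']; group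
    refine ⟨⟨q, hQC hq1⟩ * c, ?_, ?_⟩
    · rw [map_mul, hc, (hπ.ker ⟨q, hQC hq1⟩).2 hq1, one_mul]
    · show q * c * t * (q * c)⁻¹ = t
      calc q * c * t * (q * c)⁻¹ = q * (c * t * (c : G)⁻¹) * q⁻¹ := by group
        _ = q * (q * t) * q⁻¹ := by rw [← h1t]
        _ = q * q * ((t * q⁻¹ * t) * (t : G)⁻¹) := by group
        _ = (q * q * q) * (t : G)⁻¹ := by rw [h2]; group
        _ = t := by rw [hq3, one_mul, htinv]
  have hsact : ∀ x, h.cfg.actC s x = h.cfg.rho hπ u0 x := by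
    intro x; rw [← hsπ, h.cfg.rho_pi hπ]
  have hst' : (t : G) * s * (t : G)⁻¹ = s := by
    have h1 : (s : G) * t = t * s := by
      calc (s : G) * t = s * t * (s : G)⁻¹ * s := by group
        _ = t * s := by rw [hst]
    rw [← h1]; group
  have hs3Z : (s : G) * s * s ∈ Z := by
    have h1 : ((s * s * s : ↥(centralizer (Z : Set G))) : G) ∈ Q := by
      rw [← hπ.ker, map_mul, map_mul, hsπ, r6]
    apply hCQt _ h1
    calc (t : G) * (s * s * s) * (t : G)⁻¹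
        = (t * s * (t : G)⁻¹) * (t * s * (t : G)⁻¹) * (t * s * (t : G)⁻¹) := by group
      _ = s * s * s := by rw [hst']
  -- `a ↦ t a t⁻¹ a⁻¹` lifts
  have hlift : ∀ x ∈ Q, ∃ hx' : (t : G) * x * (t : G)⁻¹ * x⁻¹ ∈ Q, ∀ hx : x ∈ Q,
      bar (⟨(t : G) * x * (t : G)⁻¹ * x⁻¹, hx'⟩ : ↥Q) = bar ⟨x, hx⟩ := by
    intro x hx
    have hxt : (t : G) * x * (t : G)⁻¹ ∈ Q := h.cfg.normQ' t.2 hx
    refine ⟨Q.mul_mem hxt (Q.inv_mem hx), fun _ => ?_⟩
    have h1 := h.cfg.actC_bar t ⟨x, hx⟩ ⟨_, hxt⟩ rfl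
    rw [htneg] at h1
    have h2 : bar (⟨(t : G) * x * (t : G)⁻¹ * x⁻¹, Q.mul_mem hxt (Q.inv_mem hx)⟩ : ↥Q)
        = bar (⟨_, hxt⟩ : ↥Q) + -bar (⟨x, hx⟩ : ↥Q) := by
      rw [← bar_inv, ← bar_mul]; rfl
    rw [h2, ← h1]
    have h3 := h.cfg.three_M (bar (⟨x, hx⟩ : ↥Q))
    have h4 : bar (⟨x, hx⟩ : ↥Q) + bar (⟨x, hx⟩ : ↥Q) = - bar (⟨x, hx⟩ : ↥Q) := eq_neg_of_add_eq_zero_left h3
    rw [← neg_add, h4, neg_neg]
  -- `s ^ 3 = 1`
  have hs3 : (s : G) * s * s = 1 := by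
    obtain ⟨ab, hab, habb⟩ := mem_barS.1 hbW
    set a1 : G := (t : G) * ab * (t : G)⁻¹ * (ab : G)⁻¹ with ha1
    have hnA : ∀ g : G, ∀ a ∈ A, g * a * g⁻¹ ∈ A := fun g a ha => hAn.conj_mem a ha g
    have ha1A : a1 ∈ A := A.mul_mem (hnA t _ hab) (A.inv_mem hab)
    have ha1b : bar (⟨a1, h.AQ ha1A⟩ : ↥Q) = b := by
      obtain ⟨_, h1⟩ := hlift ab ab.2
      rw [← habb]
      exact h1 ab.2
    have hinvt : ∀ x ∈ A, (t : G) * ((t : G) * x * (t : G)⁻¹ * x⁻¹) * (t : G)⁻¹ =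
        ((t : G) * x * (t : G)⁻¹ * x⁻¹)⁻¹ := by
      intro x hx
      have h1 := h.commA _ (hnA t x hx) x⁻¹ (A.inv_mem hx)
      have h2 : (t : G) * ((t : G) * x * (t : G)⁻¹ * x⁻¹) * (t : G)⁻¹
          = ((t : G) * (t : G)) * x * ((t : G) * (t : G))⁻¹ * ((t : G) * x * (t : G)⁻¹)⁻¹ := by group
      rw [h2, htt']
      group
    have ha1t : (t : G) * a1 * (t : G)⁻¹ = a1⁻¹ := hinvt ab hab
    have ha1ne : a1 ≠ 1 := by
      intro h1
      apply hb0
      rw [← ha1b]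
      rw [h.cfg.bar_eq_zero_iff]
      show a1 ∈ Z
      rw [h1]; exact Z.one_mem
    -- `[A, s] ≤ ⟨a1⟩`
    have hclaim : ∀ a ∈ A, (s : G) * a * (s : G)⁻¹ * a⁻¹ ∈ zpowers a1 := by
      intro a ha
      set a' : G := (t : G) * a * (t : G)⁻¹ * a⁻¹ with ha'
      have ha'A : a' ∈ A := A.mul_mem (hnA t _ ha) (A.inv_mem ha)
      have ha't : (t : G) * a' * (t : G)⁻¹ = a'⁻¹ := hinvt a ha
      have ha'b : bar (⟨a', h.AQ ha'A⟩ : ↥Q) = bar ⟨a, h.AQ ha⟩ := by
        obtain ⟨_, h1⟩ := hlift a (h.AQ ha)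
        exact h1 (h.AQ ha)
      have hz' : a * a'⁻¹ ∈ Z := (h.cfg.bar_eq_iff ⟨a, h.AQ ha⟩ ⟨a', h.AQ ha'A⟩).1 ha'b.symm
      set z' := a * a'⁻¹ with hz'_def
      have haz : a = z' * a' := by rw [hz'_def]; group
      have hsz : (s : G) * z' * (s : G)⁻¹ = z' := by
        rw [Loc43.comm_of_center hz' s.2]; group
      have e1 : (s : G) * a * (s : G)⁻¹ * a⁻¹ = (s : G) * a' * (s : G)⁻¹ * a'⁻¹ := by
        have h1 : (s : G) * a * (s : G)⁻¹ * a⁻¹ = (s * z' * (s : G)⁻¹) * ((s : G) * a' * (s : G)⁻¹ * a'⁻¹) * z'⁻¹ := by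
          rw [haz]; group
        rw [h1, hsz]
        have h2 : (s : G) * a' * (s : G)⁻¹ * a'⁻¹ ∈ centralizer (Z : Set G) :=
          hQC (h.AQ (A.mul_mem (hnA s _ ha'A) (A.inv_mem ha'A)))
        have h3 := Loc43.comm_of_center hz' h2
        rw [← h3]; group
      rw [e1]
      set c : G := (s : G) * a' * (s : G)⁻¹ * a'⁻¹ with hc
      have hcA : c ∈ A := A.mul_mem (hnA s _ ha'A) (A.inv_mem ha'A)
      have hcb : ∃ l : ℤ, bar (⟨c, h.AQ hcA⟩ : ↥Q) = l • b := by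
        obtain ⟨l, hl⟩ := hUW (bar ⟨a', h.AQ ha'A⟩) ((h.cfg.bar_mem_barS h.ZA _).2 ha'A)
        refine ⟨l, ?_⟩
        have h1 : bar (⟨c, h.AQ hcA⟩ : ↥Q) = h.cfg.actC s (bar ⟨a', h.AQ ha'A⟩) + - bar ⟨a', h.AQ ha'A⟩ := by
          rw [h.cfg.actC_bar s ⟨a', h.AQ ha'A⟩ ⟨(s : G) * a' * (s : G)⁻¹, h.cfg.normQ' s.2 (h.AQ ha'A)⟩ rfl,
            ← bar_inv, ← bar_mul]
          rfl
        rw [h1, hsact, hl]; abel
      obtain ⟨l, hl⟩ := hcb
      have hct : (t : G) * c * (t : G)⁻¹ = c⁻¹ := by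
        have h1 := h.commA _ (hnA s _ (A.inv_mem ha'A)) _ ha'A
        calc (t : G) * c * (t : G)⁻¹
            = (t * s * (t : G)⁻¹) * (t * a' * (t : G)⁻¹) * (t * s * (t : G)⁻¹)⁻¹ * (t * a' * (t : G)⁻¹)⁻¹ := by
              rw [hc]; group
          _ = s * a'⁻¹ * (s : G)⁻¹ * a' := by rw [hst', ha't, inv_inv]
          _ = a' * (s * a'⁻¹ * (s : G)⁻¹) := h1
          _ = c⁻¹ := by rw [hc]; group
      -- `c a1^{-l}` is in `Z` and inverted by `t`
      have hy : c * (a1 ^ l)⁻¹ = 1 := by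
        have hyA : c * (a1 ^ l)⁻¹ ∈ A := A.mul_mem hcA (A.inv_mem (A.zpow_mem ha1A l))
        have hyZ : c * (a1 ^ l)⁻¹ ∈ Z := by
          have h1 : bar (⟨a1 ^ l, h.AQ (A.zpow_mem ha1A l)⟩ : ↥Q) = l • b := by
            rw [← ha1b]
            have : (⟨a1 ^ l, h.AQ (A.zpow_mem ha1A l)⟩ : ↥Q) = ⟨a1, h.AQ ha1A⟩ ^ l := rfl
            rw [this]
            unfold bar
            rw [map_zpow]; rfl
          exact (h.cfg.bar_eq_iff ⟨c, h.AQ hcA⟩ ⟨a1 ^ l, h.AQ (A.zpow_mem ha1A l)⟩).1 (by rw [hl, h1])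
        have h1 : (t : G) * (c * (a1 ^ l)⁻¹) * (t : G)⁻¹ = c * (a1 ^ l)⁻¹ := by
          rw [Loc43.comm_of_center hyZ t.2]; group
        have h2 : (t : G) * (a1 ^ l) * (t : G)⁻¹ = (a1 ^ l)⁻¹ := by
          rw [← conj_zpow, ha1t, inv_zpow]
        have h3 : (t : G) * (c * (a1 ^ l)⁻¹) * (t : G)⁻¹ = (c * (a1 ^ l)⁻¹)⁻¹ := by
          calc (t : G) * (c * (a1 ^ l)⁻¹) * (t : G)⁻¹
              = (t * c * (t : G)⁻¹) * ((t : G) * (a1 ^ l) * (t : G)⁻¹)⁻¹ := by group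
            _ = c⁻¹ * (a1 ^ l) := by rw [hct, h2, inv_inv]
            _ = (a1 ^ l) * c⁻¹ := h.commA _ (A.inv_mem hcA) _ (A.zpow_mem ha1A l)
            _ = (c * (a1 ^ l)⁻¹)⁻¹ := by group
        exact no2 _ (h.expA hyA) (by rw [h1] at h3; exact h3)
      exact ⟨l, (mul_inv_eq_one.1 hy).symm⟩
    obtain ⟨z, hz, hz1, htr⟩ := h.trans
    obtain ⟨n, hn, hna1⟩ := htr a1 ha1A ha1ne
    set s1 : G := n⁻¹ * s * n with hs1
    have hs1A : ∀ a ∈ A, s1 * a * s1⁻¹ * a⁻¹ ∈ Z := by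
      intro a ha
      obtain ⟨l, hl⟩ := hclaim _ (hnA n a ha)
      have hl' : a1 ^ l = (s : G) * (n * a * n⁻¹) * (s : G)⁻¹ * (n * a * n⁻¹)⁻¹ := hl
      have h1 : s1 * a * s1⁻¹ * a⁻¹ = n⁻¹ * ((s : G) * (n * a * n⁻¹) * (s : G)⁻¹ * (n * a * n⁻¹)⁻¹) * n := by
        rw [hs1]; group
      rw [h1, ← hl', ← hna1, conj_zpow]
      have : n⁻¹ * (n * z ^ l * n⁻¹) * n = z ^ l := by group
      rw [this]
      exact Z.zpow_mem hz l
    have hs9 : (s : G) ^ 9 = 1 := by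
      have h1 : ((s : G) * s * s) * (s * s * s) * (s * s * s) = 1 := hexp _ (h.cfg.le hs3Z)
      rw [← h1]; simp only [pow_succ, pow_zero, one_mul, mul_assoc]
    have hs1Z : s1 ∈ centralizer (Z : Set G) := by
      have h1 := hs1A z (h.ZA hz)
      have h2 : s1 * z * s1⁻¹ ∈ Z := by
        have := Z.mul_mem h1 hz
        rwa [inv_mul_cancel_right] at this
      have h3 : s1 * z * s1⁻¹ ≠ 1 := by
        intro h4; apply hz1
        calc z = s1⁻¹ * (s1 * z * s1⁻¹) * s1 := by group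
          _ = 1 := by rw [h4]; group
      have h4 : s1 * z * s1⁻¹ = z := by
        rcases Two.eq_or_inv h.cfg.cardZ h2 hz h3 hz1 with h4 | h4
        · exact h4
        · exfalso
          have h5 : s1 ^ 9 = 1 := by
            have : s1 ^ 9 = n⁻¹ * (s : G) ^ 9 * n := by
              rw [hs1]
              have := conj_pow (i := 9) (a := n⁻¹) (b := (s : G))
              rw [inv_inv] at this
              exact this
            rw [this, hs9]; group
          have h6 : ∀ w : G, w = z ∨ w = z⁻¹ → s1 * w * s1⁻¹ = w⁻¹ := by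
            rintro w (rfl | rfl)
            · exact h4
            · have := congrArg (·⁻¹) h4
              simp only [mul_inv_rev, inv_inv] at this
              rw [← mul_assoc] at this
              rw [inv_inv]; exact this
          have h7 : s1 * (s1 * z * s1⁻¹) * s1⁻¹ = z := by rw [h4, h6 _ (Or.inr rfl), inv_inv]
          have h8 : (s1 * s1) * z = z * (s1 * s1) := by
            calc (s1 * s1) * z = s1 * (s1 * z * s1⁻¹) * s1⁻¹ * (s1 * s1) := by group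
              _ = z * (s1 * s1) := by rw [h7]
          have h9 : Commute ((s1 * s1) ^ 4) z := (show Commute (s1 * s1) z from h8).pow_left 4
          have h10 : s1 * (s1 * s1) ^ 4 = 1 := by
            rw [← h5]; simp only [pow_succ, pow_zero, one_mul, mul_assoc]
          have h11 : s1 = ((s1 * s1) ^ 4)⁻¹ := eq_inv_of_mul_eq_one_left h10
          have h12 : s1 * z * s1⁻¹ = z := by
            rw [h11, (h9.inv_left).eq]; group
          rw [h12] at h4
          exact hz1 (no2 z (hexp z (h.cfg.le hz)) h4)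
      rw [Subgroup.mem_centralizer_iff]
      intro w hw
      by_cases hw1 : w = 1
      · rw [hw1]; simp
      have h5 : s1 * z = z * s1 := by
        calc s1 * z = s1 * z * s1⁻¹ * s1 := by group
          _ = z * s1 := by rw [h4]
      rcases Two.eq_or_inv h.cfg.cardZ hw hz hw1 hz1 with h3 | h3
      · rw [h3]; exact h5.symm
      · rw [h3]
        have : Commute s1 z := h5
        exact this.symm.inv_left
    have hs1Q : s1 ∈ Q := by
      apply h.faithful hπ hg ⟨s1, hs1Z⟩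
      intro v hv
      obtain ⟨a, ha, rfl⟩ := mem_barS.1 hv
      have h1 : s1 * a * s1⁻¹ ∈ Q := h.cfg.normQ' hs1Z a.2
      rw [h.cfg.actC_bar ⟨s1, hs1Z⟩ a ⟨s1 * a * s1⁻¹, h1⟩ rfl, h.cfg.bar_eq_iff]
      exact hs1A a ha
    have h1 := hexp s1 hs1Q
    have h2 : s1 * s1 * s1 = n⁻¹ * ((s : G) * s * s) * n := by rw [hs1]; group
    rw [h2] at h1
    calc (s : G) * s * s = n * (n⁻¹ * ((s : G) * s * s) * n) * n⁻¹ := by group
      _ = 1 := by rw [h1]; group
  -- the subgroup `K0`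
  have hpc : ∀ x ∈ pre W', ∀ y ∈ pre W', x * y = y * x := by
    rintro x ⟨hx, hxW⟩ y ⟨hy, hyW⟩
    exact (h.cfg.form_bar_eq_zero ⟨x, hx⟩ ⟨y, hy⟩).1 (hW'iso _ hxW _ hyW)
  let K0 : Subgroup G :=
    { carrier := {x | x ∈ pre W' ∧ (t : G) * x * (t : G)⁻¹ = x⁻¹}
      one_mem' := ⟨(pre W').one_mem, by group⟩
      mul_mem' := by
        rintro x y ⟨hx, hxt⟩ ⟨hy, hyt⟩
        refine ⟨(pre W').mul_mem hx hy, ?_⟩
        calc (t : G) * (x * y) * (t : G)⁻¹ = ((t : G) * x * (t : G)⁻¹) * ((t : G) * y * (t : G)⁻¹) := by group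
          _ = x⁻¹ * y⁻¹ := by rw [hxt, hyt]
          _ = (x * y)⁻¹ := by rw [hpc x hx y hy]; group
      inv_mem' := by
        rintro x ⟨hx, hxt⟩
        refine ⟨(pre W').inv_mem hx, ?_⟩
        calc (t : G) * x⁻¹ * (t : G)⁻¹ = ((t : G) * x * (t : G)⁻¹)⁻¹ := by group
          _ = x⁻¹⁻¹ := by rw [hxt] }
  have hK0 : ∀ x, x ∈ K0 ↔ x ∈ pre W' ∧ (t : G) * x * (t : G)⁻¹ = x⁻¹ := fun x => Iff.rfl
  have hK0s : ∀ c : ↥(centralizer (Z : Set G)), (t : G) * c * (t : G)⁻¹ = c → ∀ x ∈ K0, (c : G) * x * (c : G)⁻¹ ∈ K0 := by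
    intro c hct x hx
    obtain ⟨hx1, hx2⟩ := (hK0 x).1 hx
    refine (hK0 _).2 ⟨h.cfg.pre_inv hW'inv c c.2 x hx1, ?_⟩
    calc (t : G) * ((c : G) * x * (c : G)⁻¹) * (t : G)⁻¹
        = ((t : G) * c * (t : G)⁻¹) * ((t : G) * x * (t : G)⁻¹) * ((t : G) * c * (t : G)⁻¹)⁻¹ := by group
      _ = (c : G) * x⁻¹ * (c : G)⁻¹ := by rw [hct, hx2]
      _ = ((c : G) * x * (c : G)⁻¹)⁻¹ := by group
  have hs3' : (s : G) ^ (3 : ℤ) = 1 := by
    rw [show (3 : ℤ) = ((3 : ℕ) : ℤ) by norm_num, zpow_natCast, pow_succ, pow_two]; exact hs3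
  have hsK : ∀ n : ℤ, ∀ x ∈ K0, (s : G) ^ n * x * ((s : G) ^ n)⁻¹ ∈ K0 := by
    intro n x hx
    have h1 : (t : G) * ((s ^ n : ↥(centralizer (Z : Set G))) : G) * (t : G)⁻¹ =
        ((s ^ n : ↥(centralizer (Z : Set G))) : G) := by
      rw [Subgroup.coe_zpow, ← conj_zpow, hst']
    have h2 := hK0s (s ^ n) h1 x hx
    rwa [Subgroup.coe_zpow] at h2
  -- the subgroup `T`
  let T : Subgroup G :=
    { carrier := {g | ∃ k ∈ K0, ∃ n : ℤ, g = k * (s : G) ^ n}
      one_mem' := ⟨1, K0.one_mem, 0, by simp⟩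
      mul_mem' := by
        rintro _ _ ⟨k, hk, n, rfl⟩ ⟨k', hk', n', rfl⟩
        refine ⟨k * ((s : G) ^ n * k' * ((s : G) ^ n)⁻¹), K0.mul_mem hk (hsK n k' hk'), n + n', ?_⟩
        rw [zpow_add]; group
      inv_mem' := by
        rintro _ ⟨k, hk, n, rfl⟩
        refine ⟨(s : G) ^ (-n) * k⁻¹ * ((s : G) ^ (-n))⁻¹, hsK (-n) _ (K0.inv_mem hk), -n, ?_⟩
        rw [zpow_neg]; group }
  have hT : ∀ g, g ∈ T ↔ ∃ k ∈ K0, ∃ n : ℤ, g = k * (s : G) ^ n := fun g => Iff.rfl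
  have hAT : T ⊓ A = ⊥ := by
    rw [eq_bot_iff]
    rintro g ⟨hgT, hgA⟩
    obtain ⟨k, hk, n, rfl⟩ := (hT g).1 hgT
    have hkQ : k ∈ Q := ((hK0 k).1 hk).1.1
    have hsn : ((s ^ n : ↥(centralizer (Z : Set G))) : G) ∈ Q := by
      rw [Subgroup.coe_zpow]
      have := Q.mul_mem (Q.inv_mem hkQ) (h.AQ hgA)
      rwa [inv_mul_cancel_left] at this
    have h1 := (hπ.ker _).2 hsn
    rw [map_zpow, hsπ] at h1
    have hn3 : n % 3 = 0 := by
      have h2 : u0 ^ (3 : ℤ) = 1 := by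
        rw [show (3 : ℤ) = ((3 : ℕ) : ℤ) by norm_num, zpow_natCast, pow_succ, pow_two]; exact r6
      have hn : n % 3 = 0 ∨ n % 3 = 1 ∨ n % 3 = 2 := by omega
      rcases hn with h3 | h3 | h3
      · exact h3
      · exfalso
        rw [show n = 3 * (n / 3) + 1 by omega, zpow_add, zpow_mul, h2, one_zpow, one_mul, zpow_one] at h1
        revert h1; decide
      · exfalso
        rw [show n = 3 * (n / 3) + 1 + 1 by omega, zpow_add, zpow_add, zpow_mul, h2, one_zpow, one_mul, zpow_one] at h1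
        revert h1; decide
    have hsn1 : (s : G) ^ n = 1 := by
      rw [show n = 3 * (n / 3) by omega, zpow_mul, hs3', one_zpow]
    rw [hsn1, mul_one] at hgA ⊢
    obtain ⟨⟨hkQ', hkW⟩, hkt⟩ := (hK0 k).1 hk
    have h2 := hW'int _ hkW ((h.cfg.bar_mem_barS h.ZA _).2 hgA)
    have hkZ : k ∈ Z := (h.cfg.bar_eq_zero_iff ⟨k, hkQ'⟩).1 h2
    have h4 : (t : G) * k * (t : G)⁻¹ = k := by
      rw [Loc43.comm_of_center hkZ t.2]; group
    rw [h4] at hkt
    exact no2 k (h.expA hgA) hkt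
  -- `Q ≤ A ⊔ T`
  have hQU : Q ≤ A ⊔ T := by
    intro q hq
    obtain ⟨w, hw, x, hx, hwx⟩ := hspan (bar ⟨q, hq⟩)
    obtain ⟨a, ha, rfl⟩ := mem_barS.1 hw
    have h1 : (a : G)⁻¹ * q ∈ Q := Q.mul_mem (Q.inv_mem a.2) hq
    have h2 : bar (⟨(a : G)⁻¹ * q, h1⟩ : ↥Q) = x := by
      have : (⟨(a : G)⁻¹ * q, h1⟩ : ↥Q) = a⁻¹ * ⟨q, hq⟩ := rfl
      rw [this, bar_mul, bar_inv, hwx]; abel
    obtain ⟨hk, hkb⟩ := hlift _ h1
    set k : G := (t : G) * ((a : G)⁻¹ * q) * (t : G)⁻¹ * ((a : G)⁻¹ * q)⁻¹ with hkdef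
    have hpre : (a : G)⁻¹ * q ∈ pre W' := ⟨h1, by rw [h2]; exact hx⟩
    have hkK : k ∈ K0 := by
      refine (hK0 k).2 ⟨⟨hk, by rw [hkb h1, h2]; exact hx⟩, ?_⟩
      have h3 := hpc _ (h.cfg.pre_inv hW'inv t t.2 _ hpre) _ ((pre W').inv_mem hpre)
      have h4 : (t : G) * k * (t : G)⁻¹
          = ((t : G) * (t : G)) * ((a : G)⁻¹ * q) * ((t : G) * (t : G))⁻¹ *
            ((t : G) * ((a : G)⁻¹ * q) * (t : G)⁻¹)⁻¹ := by
        rw [hkdef]; group
      rw [h4, htt', hkdef]; group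
    have hz : (a : G)⁻¹ * q * k⁻¹ ∈ Z :=
      (h.cfg.bar_eq_iff ⟨(a : G)⁻¹ * q, h1⟩ ⟨k, hk⟩).1 (hkb h1).symm
    have h5 : q = (a * ((a : G)⁻¹ * q * k⁻¹)) * k := by group
    rw [h5]
    exact Subgroup.mul_mem_sup (A.mul_mem ha (h.ZA hz)) ((hT k).2 ⟨k, hkK, 0, by simp⟩)
  have hsU : (s : G) ∈ A ⊔ T := by
    apply (le_sup_right : T ≤ A ⊔ T)
    exact (hT _).2 ⟨1, K0.one_mem, 1, by simp⟩
  have hUC : A ⊔ T ≤ centralizer (Z : Set G) := by
    apply sup_le (h.AQ.trans hQC)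
    rintro _ ⟨k, hk, n, rfl⟩
    exact (centralizer (Z : Set G)).mul_mem (hQC ((hK0 k).1 hk).1.1) ((centralizer (Z : Set G)).zpow_mem s.2 n)
  have h729 : 729 ∣ Nat.card ↥(A ⊔ T) := by
    have hrel : 3 ∣ Q.relIndex (A ⊔ T) := by
      let f : ↥(A ⊔ T) →* S3 := π.comp (Subgroup.inclusion hUC)
      have h1 : f.ker = Q.subgroupOf (A ⊔ T) := by
        ext x
        rw [MonoidHom.mem_ker, Subgroup.mem_subgroupOf]
        exact hπ.ker _
      have h2 : Q.relIndex (A ⊔ T) = Nat.card ↥f.range := by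
        rw [← Subgroup.index_ker, h1]; rfl
      rw [h2]
      have h3 : zpowers u0 ≤ f.range := by
        rw [Subgroup.zpowers_le]
        exact ⟨⟨s, hsU⟩, hsπ⟩
      have h4 : Nat.card ↥(zpowers u0) = 3 := by
        rw [Nat.card_zpowers]
        apply orderOf_eq_prime
        · rw [pow_succ, pow_two]; exact r6
        · decide
      have h5 := Subgroup.card_dvd_of_le h3
      rwa [h4] at h5
    have h1 := Subgroup.relIndex_mul_relIndex (⊥ : Subgroup G) Q (A ⊔ T) bot_le hQU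
    rw [Subgroup.relIndex_bot_left, Subgroup.relIndex_bot_left, h.cfg.cardQ] at h1
    obtain ⟨k, hk⟩ := hrel
    rw [hk] at h1
    exact ⟨k, by rw [← h1]; ring⟩
  have hidx : (Nat.card ↥A).Coprime (A ⊔ T).index := by
    have h1 := Subgroup.card_mul_index (A ⊔ T)
    rw [hcardG] at h1
    obtain ⟨k, hk⟩ := h729
    rw [hk] at h1
    have h2 : k * (A ⊔ T).index = 208 := by
      have : 729 * (k * (A ⊔ T).index) = 729 * 208 := by rw [← mul_assoc, h1]
      omega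
    have h3 : (A ⊔ T).index ∣ 208 := ⟨k, by rw [← h2, mul_comm]⟩
    rw [h.cardA]
    exact Nat.Coprime.coprime_dvd_right h3 (by norm_num)
  have hAm : IsMulCommutative ↥A := ⟨⟨fun a b => Subtype.ext (h.commA a a.2 b b.2)⟩⟩
  exact Cfsg.Agent.S0051.result A (A ⊔ T) le_sup_left hidx T le_sup_right hAT rfl

end Cfsg.Agent.H352.L43
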